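import Cfsg.Agent.Chevalley.CentralizerFix
import Cfsg.Agent.Chevalley.HighData
import Cfsg.Agent.Chevalley.Data.SysF4

/-!
Type `F₄` in characteristic two: the centralisers of the four involutions.
-/

set_option autoImplicit false

namespace CfsgLib.Chevalley.F4E

open Cfsg.Lie

theorem highF4 : sysF4.HighFacts := highFacts_of_chk checkedF4 (by decide +kernel)

theorem pos_iff (r : ℕ) : chevF4.IsPosRoot r ↔ 24 ≤ r ∧ r < 48 := sysF4.pos_iff r

theorem pos_range {L : List ℕ} (h : L.all (fun r => decide (24 ≤ r) && decide (r < 48)) = true) :
    ∀ r ∈ L, chevF4.nroots / 2 ≤ r ∧ r < chevF4.nroots := by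
  simp only [List.all_eq_true, Bool.and_eq_true, decide_eq_true_eq] at h
  exact h

theorem spread_list {L : List ℕ} {m : ℕ} (hm : m < 4)
    (h : L.all (fun r => decide (tabF4.coord 4 m (topIdx chevF4) < 2 * tabF4.coord 4 m r)) = true) :
    sysF4.Spread {r | r ∈ L} := by
  simp only [List.all_eq_true, decide_eq_true_eq] at h
  exact sysF4.spread_of_coord highF4 hm h

variable (F : Type*) [Field F]

theorem torusVal_four (d : ℕ → Fˣ) (s : ℕ) :
    torusVal chevF4 d s = d 0 ^ chevF4.cartan 0 s * d 1 ^ chevF4.cartan 1 s *
      d 2 ^ chevF4.cartan 2 s * d 3 ^ chevF4.cartan 3 s := by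
  rw [torusVal, show chevF4.rank = 4 from rfl]
  simp [Finset.prod_range_succ]

theorem pairing_perm (n : ↥(chevF4.monomialSubgroup F)) (r s : Fin chevF4.nroots) :
    chevF4.pairing (sysF4.perm F n r : ℕ) (sysF4.perm F n s : ℕ) = chevF4.pairing r s := by
  obtain ⟨L, hL⟩ := sysF4.exists_wperm F n
  rw [hL]
  exact sysF4.pairing_wperm L r s

/-- The roots generating the centraliser of `x₄₇`. -/
def longList : List ℕ := [14, 20, 22] ++ List.range' 24 24
/-- The roots generating the centraliser of `x₄₄`. -/
def shortList : List ℕ := [20, 22, 23] ++ List.range' 24 24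
/-- The roots generating the centraliser of `x₄₇ x₄₄`. -/
def bothList : List ℕ := [20, 22] ++ List.range' 24 24

theorem target_eq (l : List ℕ) :
    genSub chevF4 F {r | r ∈ l ++ List.range' 24 24} =
      chevF4.posUnipotent F ⊔ genSub chevF4 F {r | r ∈ l} := by
  rw [posUnipotent_eq_genSub, genSub_union]
  congr 1
  ext r
  simp only [Set.mem_union, List.mem_append, List.mem_range'_1, pos_iff, Set.mem_setOf_eq,
    Nat.reduceAdd]
  tauto

variable [CharP F 2]

theorem centralizer_long :
    chevF4.group F ⊓ Subgroup.centralizer {sysF4.xG F 47 1} =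
      chevF4.posUnipotent F ⊔ chevF4.rootSubgroup F 14 ⊔ chevF4.rootSubgroup F 20 ⊔
        chevF4.rootSubgroup F 22 := by
  have h := sysF4.centralizer_dominant F (R := [47]) (J := [0, 1, 2]) (Rw := [(47, 1)])
    (A := longList) (by simp) (pos_range (by decide)) (spread_list (m := 1) (by omega) (by decide +kernel))
    (by decide +kernel) (fun r hr => by
      rw [pos_iff] at hr; simp [longList, List.mem_range'_1]; omega)
    (by decide +kernel) (by decide +kernel) (by decide +kernel)
    (fun n hn e he => by
      simp only [List.mem_singleton] at he hn ⊢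
      subst he
      exact ⟨_, hn 47 rfl⟩)
    (fun d hd j hj => by
      have h3 : d 3 = 1 := by
        have := hd 47 (by simp)
        rw [Units.val_eq_one, torusVal_four] at this
        simpa [show chevF4.cartan 0 47 = 0 by decide +kernel,
          show chevF4.cartan 1 47 = 0 by decide +kernel, show chevF4.cartan 2 47 = 0 by decide +kernel,
          show chevF4.cartan 3 47 = 1 by decide +kernel] using this
      replace hj : j < 4 := hj
      interval_cases j
      all_goals first | exact Or.inr h3 | exact Or.inl (by decide +kernel))
  rw [show sysF4.xProd F [47] (fun _ => (1 : F)) = sysF4.xG F 47 1 from mul_one _] at h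
  refine h.trans ((target_eq F [14, 20, 22]).trans ?_)
  simp only [rootSubgroup_eq_genSub, genSub_union, sup_assoc]
  congr 2
  ext r
  simp
  tauto

theorem centralizer_short :
    chevF4.group F ⊓ Subgroup.centralizer {sysF4.xG F 44 1} =
      chevF4.posUnipotent F ⊔ chevF4.rootSubgroup F 20 ⊔ chevF4.rootSubgroup F 22 ⊔
        chevF4.rootSubgroup F 23 := by
  have h := sysF4.centralizer_dominant F (R := [44]) (J := [1, 2, 3]) (Rw := [(44, 1)])
    (A := shortList) (by simp) (pos_range (by decide)) (spread_list (m := 1) (by omega) (by decide +kernel))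
    (by decide +kernel) (fun r hr => by
      rw [pos_iff] at hr; simp [shortList, List.mem_range'_1]; omega)
    (by decide +kernel) (by decide +kernel) (by decide +kernel)
    (fun n hn e he => by
      simp only [List.mem_singleton] at he hn ⊢
      subst he
      exact ⟨_, hn 44 rfl⟩)
    (fun d hd j hj => by
      have h0 : d 0 = 1 := by
        have := hd 44 (by simp)
        rw [Units.val_eq_one, torusVal_four] at this
        simpa [show chevF4.cartan 0 44 = 1 by decide +kernel,
          show chevF4.cartan 1 44 = 0 by decide +kernel, show chevF4.cartan 2 44 = 0 by decide +kernel,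
          show chevF4.cartan 3 44 = 0 by decide +kernel] using this
      replace hj : j < 4 := hj
      interval_cases j
      all_goals first | exact Or.inr h0 | exact Or.inl (by decide +kernel))
  rw [show sysF4.xProd F [44] (fun _ => (1 : F)) = sysF4.xG F 44 1 from mul_one _] at h
  refine h.trans ((target_eq F [20, 22, 23]).trans ?_)
  simp only [rootSubgroup_eq_genSub, genSub_union, sup_assoc]
  congr 2
  ext r
  simp
  tauto

theorem centralizer_mixed :
    chevF4.group F ⊓ Subgroup.centralizer {sysF4.xG F 47 1 * sysF4.xG F 44 1} =
      chevF4.posUnipotent F ⊔ chevF4.rootSubgroup F 20 ⊔ chevF4.rootSubgroup F 22 := by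
  have h := sysF4.centralizer_dominant F (R := [47, 44]) (J := [1, 2])
    (Rw := [(47, 1), (44, 1)]) (A := bothList) (by simp) (pos_range (by decide))
    (spread_list (m := 1) (by omega) (by decide +kernel))
    (by decide +kernel) (fun r hr => by
      rw [pos_iff] at hr; simp [bothList, List.mem_range'_1]; omega)
    (by decide +kernel) (by decide +kernel) (by decide +kernel)
    (fun n hn e he => by
      have h1 := hn 47 (by simp)
      have h2 := hn 44 (by simp)
      have key : ∀ x ∈ [47, 44], ∀ y ∈ [47, 44], chevF4.pairing x y = chevF4.pairing 47 44 →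
          x = 47 ∧ y = 44 := by decide +kernel
      have h3 := key _ h1 _ h2 (pairing_perm F n _ _)
      rcases List.mem_cons.mp he with rfl | he
      · exact ⟨_, h3.1⟩
      · rw [List.mem_singleton] at he
        subst he
        exact ⟨_, h3.2⟩)
    (fun d hd j hj => by
      have h3 : d 3 = 1 := by
        have := hd 47 (by simp)
        rw [Units.val_eq_one, torusVal_four] at this
        simpa [show chevF4.cartan 0 47 = 0 by decide +kernel,
          show chevF4.cartan 1 47 = 0 by decide +kernel, show chevF4.cartan 2 47 = 0 by decide +kernel,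
          show chevF4.cartan 3 47 = 1 by decide +kernel] using this
      have h0 : d 0 = 1 := by
        have := hd 44 (by simp)
        rw [Units.val_eq_one, torusVal_four] at this
        simpa [show chevF4.cartan 0 44 = 1 by decide +kernel,
          show chevF4.cartan 1 44 = 0 by decide +kernel, show chevF4.cartan 2 44 = 0 by decide +kernel,
          show chevF4.cartan 3 44 = 0 by decide +kernel] using this
      replace hj : j < 4 := hj
      interval_cases j
      all_goals first | exact Or.inr h0 | exact Or.inr h3 | exact Or.inl (by decide +kernel))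
  rw [show sysF4.xProd F [47, 44] (fun _ => (1 : F)) = sysF4.xG F 47 1 * sysF4.xG F 44 1 from
    congrArg _ (mul_one _)] at h
  refine h.trans ((target_eq F [20, 22]).trans ?_)
  simp only [rootSubgroup_eq_genSub, genSub_union, sup_assoc]
  congr 2
  ext r
  simp
  tauto

end CfsgLib.Chevalley.F4E
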