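import Cfsg.Agent.Chevalley.F4Involutions

/-!
Type `F₄` in characteristic two: the centraliser of `x₃₉(1) x₄₅(1)`.
-/

set_option autoImplicit false

namespace CfsgLib.Chevalley.F4E

open Cfsg.Lie

/-- The roots occurring in the conjugates of `x₃₉ x₄₅` under `U`. -/
def vList : List ℕ := [39, 40, 44, 45, 46, 47]
/-- The normal part of `vList`. -/
def wList : List ℕ := [40, 44, 46, 47]
/-- The roots of the Levi factor. -/
def leviList : List ℕ := [33, 14, 24, 23]
/-- The radical of the parabolic subgroup of `leviList`. -/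
def radList : List ℕ := (List.range' 24 24).filter fun r => !([33, 24].contains r)
/-- The radical without `27, 34`. -/
def radList1 : List ℕ := (List.range' 24 24).filter fun r => !([33, 24, 27, 34].contains r)
/-- The radical without `27, 34, 25, 26`. -/
def radList2 : List ℕ := (List.range' 24 24).filter fun r => !([33, 24, 27, 34, 25, 26].contains r)
/-- The roots generating the centraliser of `x₃₉ x₄₅`. -/
def pairList : List ℕ :=
  leviList ++ (List.range' 24 24).filter fun r => !([27, 25, 34, 26].contains r)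

theorem pos_vList : ∀ r ∈ vList, chevF4.nroots / 2 ≤ r ∧ r < chevF4.nroots :=
  pos_range (by decide +kernel)

theorem spread_vList : sysF4.Spread {r | r ∈ vList} :=
  spread_list (m := 2) (by omega) (by decide +kernel)

theorem spread_wList : sysF4.Spread {r | r ∈ wList} :=
  spread_list (m := 2) (by omega) (by decide +kernel)

theorem pos_of_all {L : List ℕ} (h : ∀ r ∈ L, 24 ≤ r ∧ r < 48) :
    ∀ r ∈ L, chevF4.nroots / 2 ≤ r ∧ r < chevF4.nroots := h

/-- The total coefficient of `p₂` and `p₃`. -/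
def midDeg (r : ℕ) : ℤ := tabF4.coord 4 1 r + tabF4.coord 4 2 r

theorem closed_midDeg {L : List ℕ} (h1 : L.all (fun r => decide (1 ≤ midDeg r)) = true)
    (h2 : (List.range 48).all (fun k => decide (midDeg k ≤ 1) || L.contains k) = true) :
    sysF4.Closed {r | r ∈ L} := by
  simp only [List.all_eq_true, decide_eq_true_eq, List.mem_range, Bool.or_eq_true,
    List.contains_iff_mem] at h1 h2
  intro r hr s hs _ _ k hk i j hi hj hv
  refine (h2 k hk).resolve_left ?_
  have a : sysF4.vec 1 k = (i : ℤ) * sysF4.vec 1 r + (j : ℤ) * sysF4.vec 1 s := hv 1 (by decide +kernel)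
  have b : sysF4.vec 2 k = (i : ℤ) * sysF4.vec 2 r + (j : ℤ) * sysF4.vec 2 s := hv 2 (by decide +kernel)
  have hk' : midDeg k = (i : ℤ) * midDeg r + (j : ℤ) * midDeg s := by
    unfold midDeg
    change sysF4.vec 1 k + sysF4.vec 2 k = (i : ℤ) * (sysF4.vec 1 r + sysF4.vec 2 r) +
      (j : ℤ) * (sysF4.vec 1 s + sysF4.vec 2 s)
    rw [a, b]
    ring
  have e1 : midDeg r ≤ (i : ℤ) * midDeg r :=
    le_mul_of_one_le_left (by have := h1 r hr; omega) (by omega)
  have e2 : midDeg s ≤ (j : ℤ) * midDeg s :=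
    le_mul_of_one_le_left (by have := h1 s hs; omega) (by omega)
  have := h1 r hr
  have := h1 s hs
  omega

theorem spread_small {L : List ℕ} {m m' : ℕ} (hm : m < 4) (hm' : m' < 4)
    (h1 : L.all (fun r => decide (1 ≤ tabF4.coord 4 m r) && decide (tabF4.coord 4 m' r = 0)) = true)
    (h2 : (List.range 48).all (fun k => decide (tabF4.coord 4 m' k ≠ 0) ||
      decide (tabF4.coord 4 m k ≤ 1)) = true) :
    sysF4.Spread {r | r ∈ L} := by
  simp only [List.all_eq_true, decide_eq_true_eq, List.mem_range, Bool.or_eq_true,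
    Bool.and_eq_true] at h1 h2
  intro r hr s hs k hk i j hi hj hv
  have a : sysF4.vec m k = (i : ℤ) * sysF4.vec m r + (j : ℤ) * sysF4.vec m s := hv m hm
  have b : sysF4.vec m' k = (i : ℤ) * sysF4.vec m' r + (j : ℤ) * sysF4.vec m' s := hv m' hm'
  have r1 : 1 ≤ sysF4.vec m r ∧ sysF4.vec m' r = 0 := h1 r hr
  have s1 : 1 ≤ sysF4.vec m s ∧ sysF4.vec m' s = 0 := h1 s hs
  have k1 : sysF4.vec m' k ≠ 0 ∨ sysF4.vec m k ≤ 1 := h2 k hk
  rw [r1.2, s1.2, mul_zero, mul_zero, add_zero] at b
  have e1 : sysF4.vec m r ≤ (i : ℤ) * sysF4.vec m r := le_mul_of_one_le_left (by omega) (by omega)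
  have e2 : sysF4.vec m s ≤ (j : ℤ) * sysF4.vec m s := le_mul_of_one_le_left (by omega) (by omega)
  omega

variable (F : Type*) [Field F]

theorem pair_eq (a b : F) :
    sysF4.xG F 39 a * sysF4.xG F 45 b =
      sysF4.xProd F vList fun r => if r = 39 then a else if r = 45 then b else 0 := by
  simp [vList, Sys.xProd, sysF4.xG_zero]

variable [CharP F 2]

theorem cast_odd {z : ℤ} (h : z % 2 = 1) : (z : F) = 1 := by
  have h2 : ((z - 1 : ℤ) : F) = 0 := sysF4.int_cast_eq_zero F (by omega)
  push_cast at h2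
  exact sub_eq_zero.mp h2

theorem conj_fix {s r : ℕ}
    (h : decide (s < 48) && decide (r < 48) && decide (r ≠ s) && decide (r ≠ chevF4.neg s) &&
      (chevF4.commTerms s r).all (fun c => decide (c.2.1 % 2 = 0)) = true) (a t : F) :
    MulAut.conj (sysF4.xG F s a) (sysF4.xG F r t) = sysF4.xG F r t := by
  simp only [Bool.and_eq_true, decide_eq_true_eq, List.all_eq_true] at h
  obtain ⟨⟨⟨⟨h1, h2⟩, h3⟩, h4⟩, h5⟩ := h
  rw [MulAut.conj_apply, sysF4.xG_conj F h1 h2 h3 h4, sysF4.wG_commWord_one F h5, mul_one]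

theorem conj_move {s r k : ℕ} {c : ℤ}
    (h : decide (s < 48) && decide (r < 48) && decide (r ≠ s) && decide (r ≠ chevF4.neg s) &&
      decide (c % 2 = 1) && decide (chevF4.commTerms s r = [(k, c, 1, 1)]) = true) (a t : F) :
    MulAut.conj (sysF4.xG F s a) (sysF4.xG F r t) = sysF4.xG F r t * sysF4.xG F k (a * t) := by
  simp only [Bool.and_eq_true, decide_eq_true_eq] at h
  obtain ⟨⟨⟨⟨⟨h1, h2⟩, h3⟩, h4⟩, h5⟩, h6⟩ := h
  rw [MulAut.conj_apply, sysF4.xG_conj F h1 h2 h3 h4, ChevalleyDatum.commWord, h6]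
  simp [Sys.wG, cast_odd F h5, CharTwo.neg_eq]

/-- The effect of the four excluded root subgroups. -/
theorem e_conj (a b c d : F) :
    (sysF4.xG F 27 a * sysF4.xG F 34 b * (sysF4.xG F 25 c * sysF4.xG F 26 d)) *
      (sysF4.xG F 39 1 * sysF4.xG F 45 1) *
      (sysF4.xG F 27 a * sysF4.xG F 34 b * (sysF4.xG F 25 c * sysF4.xG F 26 d))⁻¹ =
    sysF4.xProd F vList fun r => if r = 39 then 1 else if r = 40 then a else if r = 44 then b
      else if r = 45 then 1 else if r = 46 then c else d := by
  rw [← MulAut.conj_apply, map_mul MulAut.conj, map_mul MulAut.conj, map_mul MulAut.conj,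
    MulAut.mul_apply, MulAut.mul_apply, MulAut.mul_apply]
  simp only [map_mul,
    conj_fix F (s := 26) (r := 39) (by decide +kernel),
    conj_move F (s := 26) (r := 45) (k := 47) (c := (chevF4.commTerms 26 45).head!.2.1) (by decide +kernel),
    conj_fix F (s := 25) (r := 39) (by decide +kernel),
    conj_move F (s := 25) (r := 45) (k := 46) (c := (chevF4.commTerms 25 45).head!.2.1) (by decide +kernel),
    conj_fix F (s := 25) (r := 47) (by decide +kernel),
    conj_move F (s := 34) (r := 39) (k := 44) (c := (chevF4.commTerms 34 39).head!.2.1) (by decide +kernel),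
    conj_fix F (s := 34) (r := 45) (by decide +kernel),
    conj_fix F (s := 34) (r := 46) (by decide +kernel),
    conj_fix F (s := 34) (r := 47) (by decide +kernel),
    conj_move F (s := 27) (r := 39) (k := 40) (c := (chevF4.commTerms 27 39).head!.2.1) (by decide +kernel),
    conj_fix F (s := 27) (r := 44) (by decide +kernel),
    conj_fix F (s := 27) (r := 45) (by decide +kernel),
    conj_fix F (s := 27) (r := 46) (by decide +kernel),
    conj_fix F (s := 27) (r := 47) (by decide +kernel)]
  simp [vList, Sys.xProd, mul_assoc]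

/-- The conjugates of `x₃₉ x₄₅` under the Borel subgroup. -/
theorem borel_conj_pair {g : GL chevF4.Idx F} (hg : g ∈ chevF4.borelSubgroup F) :
    ∃ f : ℕ → F, f 39 ≠ 0 ∧ f 45 ≠ 0 ∧
      g * (sysF4.xG F 39 1 * sysF4.xG F 45 1) * g⁻¹ = sysF4.xProd F vList f := by
  obtain ⟨u, hu, d, rfl⟩ := (sysF4.mem_borel F).mp hg
  set x : F := (torusVal chevF4 d 39 : F) with hx
  set y : F := (torusVal chevF4 d 45 : F) with hy
  have e1 : u * tor chevF4 F d * (sysF4.xG F 39 1 * sysF4.xG F 45 1) * (u * tor chevF4 F d)⁻¹ =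
      u * (sysF4.xG F 39 x * sysF4.xG F 45 y) * u⁻¹ := by
    rw [← mul_one x, ← mul_one y, hx, hy, ← sysF4.tor_conj F d (by decide +kernel),
      ← sysF4.tor_conj F d (by decide +kernel)]
    group
  obtain ⟨hWs, hR⟩ := sysF4.pos_conj_mod F (R := [39, 45]) (W := wList) (A := List.range' 24 24)
    (by decide +kernel) (by decide +kernel)
    (fun r hr => by rw [pos_iff] at hr; simp [List.mem_range'_1]; omega)
    (pos_range (by decide +kernel)) hu
  set f0 : ℕ → F := fun r => if r = 39 then x else if r = 45 then y else 0 with hf0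
  set n1 := (sysF4.xG F 39 x)⁻¹ * (u * sysF4.xG F 39 x * u⁻¹) with hn1
  set n2 := (sysF4.xG F 45 y)⁻¹ * (u * sysF4.xG F 45 y * u⁻¹) with hn2
  have h1 : n1 ∈ uSub chevF4 F {r | r ∈ wList} := hR 39 (by simp) x
  have h2 : n2 ∈ uSub chevF4 F {r | r ∈ wList} := hR 45 (by simp) y
  have h1' : (sysF4.xG F 45 y)⁻¹ * n1 * sysF4.xG F 45 y = n1 := by
    have hW : uSub chevF4 F {r | r ∈ wList} ≤ Subgroup.centralizer {sysF4.xG F 45 y} := by
      refine sysF4.uSub_le F fun r hr _ _ t => Subgroup.mem_centralizer_singleton_iff.mpr ?_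
      exact sysF4.spread_commute F spread_vList
        (show r ∈ {r | r ∈ vList} by
          simp only [wList, vList, Set.mem_setOf_eq, List.mem_cons, List.not_mem_nil] at hr ⊢; tauto)
        (show 45 ∈ {r | r ∈ vList} by simp [vList])
        (pos_range (L := wList) (by decide +kernel) r hr) (by decide +kernel) t y
    rw [mul_assoc, (Subgroup.mem_centralizer_singleton_iff.mp (hW h1)), inv_mul_cancel_left]
  have e2 : u * (sysF4.xG F 39 x * sysF4.xG F 45 y) * u⁻¹ =
      sysF4.xG F 39 x * sysF4.xG F 45 y * (n1 * n2) := by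
    conv_rhs => rw [← h1', hn2, hn1]
    group
  have hsub : uSub chevF4 F {r | r ∈ wList} ≤ uSub chevF4 F {r | r ∈ vList} :=
    uSub_mono fun r hr => by
      simp only [wList, vList, Set.mem_setOf_eq, List.mem_cons, List.not_mem_nil] at hr ⊢; tauto
  obtain ⟨k, hk⟩ := sysF4.exists_xProd F (L := vList) (by decide) pos_vList spread_vList
    (hsub (mul_mem h1 h2))
  have hk0 : ∀ r ∈ vList, r ∉ wList → k r = 0 := fun r hr hrw => by
    by_contra h0
    exact hrw (sysF4.xProd_support F (sysF4.closed_of_spread spread_wList) vList (by decide)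
      pos_vList spread_vList (hk ▸ mul_mem h1 h2) r hr h0)
  refine ⟨fun r => f0 r + k r, ?_, ?_, ?_⟩
  · simp [hf0, hk0 39 (by decide) (by decide), hx]
  · simp [hf0, hk0 45 (by decide) (by decide), hy]
  · rw [e1, e2, hk, pair_eq, sysF4.xProd_mul F spread_vList pos_vList]

theorem pairList_le_centralizer :
    genSub chevF4 F {r | r ∈ pairList} ≤
      Subgroup.centralizer {sysF4.xG F 39 1 * sysF4.xG F 45 1} := by
  have h := sysF4.genSub_le_centralizer F (R := [39, 45]) (A := pairList) (f := fun _ => (1 : F))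
    (by decide +kernel)
  rwa [show sysF4.xProd F [39, 45] (fun _ => (1 : F)) = sysF4.xG F 39 1 * sysF4.xG F 45 1 from
    congrArg _ (mul_one _)] at h

theorem pair_cover {g : GL chevF4.Idx F} (hg : g ∈ chevF4.group F)
    (hv : g * (sysF4.xG F 39 1 * sysF4.xG F 45 1) * g⁻¹ = sysF4.xG F 39 1 * sysF4.xG F 45 1) :
    g ∈ genSub chevF4 F {r | r ∈ pairList} ⊔ chevF4.diagonalSubgroup F := by
  set v := sysF4.xG F 39 1 * sysF4.xG F 45 1 with hvdef
  obtain ⟨a, ha, n, hn, c, hc, rfl⟩ := sysF4.exists_bruhat F hg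
  obtain ⟨f, hf1, hf2, hf⟩ := borel_conj_pair F hc
  obtain ⟨f', -, -, hf'⟩ := borel_conj_pair F (inv_mem ha)
  have himg : n * sysF4.xProd F vList f * n⁻¹ ∈ uSub chevF4 F {r | r ∈ vList} := by
    rw [← hf, show n * (c * v * c⁻¹) * n⁻¹ = a⁻¹ * (a * n * c * v * (a * n * c)⁻¹) * a⁻¹⁻¹ by group,
      hv, hf']
    exact sysF4.xProd_mem F pos_vList fun r hr _ => hr
  have hsupp := sysF4.perm_support F ⟨n, hn⟩ (L := vList) (by decide) pos_vList spread_vList
    (sysF4.closed_of_spread spread_vList) himg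
  have m1 := hsupp 39 (by decide) hf1
  have m2 := hsupp 45 (by decide) hf2
  have key : ∀ x ∈ vList, ∀ y ∈ vList, chevF4.pairing x y = 0 →
      (∃ z < 48, z ≠ y ∧ chevF4.pairing z y = 2) → x = 39 ∧ y = 45 := by decide +kernel
  have h44 : (44 : ℕ) < chevF4.nroots := by decide +kernel
  have h45 : chevF4.pairing 44 45 = 2 := by decide +kernel
  obtain ⟨q1, q2⟩ := key _ m1 _ m2
    (by rw [pairing_perm]; decide +kernel)
    ⟨(sysF4.perm F ⟨n, hn⟩ ⟨44, h44⟩ : ℕ), Fin.isLt _,
      fun e => by simpa using (sysF4.perm F ⟨n, hn⟩).injective (Fin.ext e),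
      by rw [pairing_perm]; exact h45⟩
  have hnM := sysF4.stab_mem F (Rw := [(39, 3), (45, 4)]) (J := [0, 3]) (by decide +kernel)
    (Q := genSub chevF4 F {r | r ∈ leviList})
    (fun j hj hjJ => by
      simp only [List.mem_cons, List.not_mem_nil, or_false] at hjJ
      rcases hjJ with rfl | rfl <;>
        exact sysF4.nG_mem_genSub F (by decide +kernel) (by decide +kernel) 1)
    ⟨n, hn⟩ (fun e he => by
      simp only [List.mem_cons, List.not_mem_nil, or_false] at he
      rcases he with rfl | rfl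
      · exact ⟨_, q1⟩
      · exact ⟨_, q2⟩)
  have hBM : chevF4.borelSubgroup F ≤ (genSub chevF4 F {r | r ∈ leviList} ⊔
      chevF4.diagonalSubgroup F) ⊔ uSub chevF4 F {r | r ∈ radList} := by
    refine sup_le ?_ (le_sup_right.trans le_sup_left)
    rw [← uSub_univ]
    refine sysF4.uSub_le F fun r _ h1 h2 t => ?_
    by_cases hl : r ∈ [33, 24]
    · refine Subgroup.mem_sup_left (Subgroup.mem_sup_left (sysF4.xG_mem_genSub F ?_ t))
      simp only [List.mem_cons, List.not_mem_nil, or_false] at hl
      rcases hl with rfl | rfl <;> simp [leviList]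
    · refine Subgroup.mem_sup_right (sysF4.xG_mem_uSub F ?_ h1 h2 t)
      change 24 ≤ r at h1
      change r < 48 at h2
      simp [radList, List.mem_range'_1] at hl ⊢
      omega
  have hmem : a * n * c ∈ (genSub chevF4 F {r | r ∈ leviList} ⊔
      chevF4.diagonalSubgroup F) ⊔ uSub chevF4 F {r | r ∈ radList} :=
    mul_mem (mul_mem (hBM ha) (Subgroup.mem_sup_left hnM)) (hBM hc)
  have hN : genSub chevF4 F {r | r ∈ leviList} ⊔ chevF4.diagonalSubgroup F ≤
      Subgroup.normalizer (uSub chevF4 F {r | r ∈ radList} : Set (GL chevF4.Idx F)) := by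
    refine sup_le (sysF4.genSub_le_normalizer_uSub F (by decide +kernel)
      (pos_range (by decide +kernel))) ?_
    rw [sysF4.diagonal_eq]
    refine le_normalizer_of_conj_mem ?_
    rintro _ ⟨d, rfl⟩ x hx
    exact sysF4.tor_conj_uSub F d hx
  rw [← SetLike.mem_coe, Subgroup.coe_mul_of_left_le_normalizer_right _ _ hN] at hmem
  obtain ⟨m, hm, r, hr, hmr⟩ := hmem
  rw [Subgroup.coe_mul_of_right_le_normalizer_left _ _
    (sysF4.diagonal_le_normalizer_genSub F (A := {r | r ∈ leviList}) fun x hx => (show ∀ r ∈ leviList, r < 48 by decide +kernel) x hx)] at hm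
  obtain ⟨l, hl, h, hh, rfl⟩ := hm
  change l * h * r = a * n * c at hmr
  have hl' : l ∈ genSub chevF4 F {r | r ∈ pairList} :=
    genSub_mono (fun x hx => List.mem_append_left _ hx) hl
  have hlv : l⁻¹ * v * l = v := by
    rw [mul_assoc, ← Subgroup.mem_centralizer_singleton_iff.mp (pairList_le_centralizer F hl'),
      inv_mul_cancel_left]
  have hrv : h * (r * v * r⁻¹) * h⁻¹ = v := by
    rw [← hlv]
    calc h * (r * (l⁻¹ * v * l) * r⁻¹) * h⁻¹
        = h * (r * v * r⁻¹) * h⁻¹ := by rw [hlv]
      _ = l⁻¹ * ((l * h * r) * v * (l * h * r)⁻¹) * l := by group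
      _ = l⁻¹ * v * l := by rw [hmr, hv]
  -- the radical splits off the four excluded roots
  have hc2 : sysF4.Closed {x | x ∈ radList2} := closed_midDeg (by decide +kernel) (by decide +kernel)
  have hc1 : sysF4.Closed {x | x ∈ radList1} := closed_midDeg (by decide +kernel) (by decide +kernel)
  have hc0 : sysF4.Closed {x | x ∈ radList} := closed_midDeg (by decide +kernel) (by decide +kernel)
  have hs1 : sysF4.Spread {x | x ∈ [27, 34]} :=
    spread_small (m := 1) (m' := 2) (by omega) (by omega) (by decide +kernel) (by decide +kernel)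
  have hs2 : sysF4.Spread {x | x ∈ [25, 26]} :=
    spread_small (m := 2) (m' := 1) (by omega) (by omega) (by decide +kernel) (by decide +kernel)
  have eu0 : ({x | x ∈ [27, 34]} ∪ {x | x ∈ radList1} : Set ℕ) = {x | x ∈ radList} := by
    ext x
    simp [radList, radList1, List.mem_range'_1]
    omega
  have eu1 : ({x | x ∈ [25, 26]} ∪ {x | x ∈ radList2} : Set ℕ) = {x | x ∈ radList1} := by
    ext x
    simp [radList1, radList2, List.mem_range'_1]
    omega
  rw [SetLike.mem_coe, ← eu0] at hr
  obtain ⟨p1, hp1, r1, hr1, rfl⟩ := sysF4.uSub_union_mul F (sysF4.closed_of_spread hs1) hc1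
    (eu0 ▸ hc0) hr
  rw [← eu1] at hr1
  obtain ⟨p2, hp2, z, hz, rfl⟩ := sysF4.uSub_union_mul F (sysF4.closed_of_spread hs2) hc2
    (eu1 ▸ hc1) hr1
  obtain ⟨k1, rfl⟩ := sysF4.exists_xProd F (L := [27, 34]) (by decide)
    (pos_range (by decide)) hs1 hp1
  obtain ⟨k2, rfl⟩ := sysF4.exists_xProd F (L := [25, 26]) (by decide)
    (pos_range (by decide)) hs2 hp2
  have hzA : z ∈ genSub chevF4 F {r | r ∈ pairList} := by
    refine sysF4.uSub_le_genSub F (fun x hx _ => ?_) hz
    simp [pairList, radList2, leviList, List.mem_range'_1] at hx ⊢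
    omega
  have hzv : z * v * z⁻¹ = v := by
    rw [Subgroup.mem_centralizer_singleton_iff.mp (pairList_le_centralizer F hzA),
      mul_inv_cancel_right]
  rw [sysF4.diagonal_eq] at hh
  obtain ⟨d, rfl⟩ := hh
  set e := sysF4.xG F 27 (k1 27) * sysF4.xG F 34 (k1 34) *
    (sysF4.xG F 25 (k2 25) * sysF4.xG F 26 (k2 26)) with he
  have he' : sysF4.xProd F [27, 34] k1 * (sysF4.xProd F [25, 26] k2 * z) = e * z := by
    simp [he, Sys.xProd, mul_assoc]
  rw [he'] at hrv hmr
  rw [show e * z * v * (e * z)⁻¹ = e * (z * v * z⁻¹) * e⁻¹ by group, hzv, hvdef, e_conj,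
    sysF4.tor_conj_xProd F d (fun x hx => (pos_vList x hx).2), pair_eq] at hrv
  have hco := sysF4.xProd_inj F (by decide) pos_vList spread_vList hrv
  have hne : ∀ s, (torusVal chevF4 d s : F) ≠ 0 := fun s => Units.ne_zero _
  have ea : k1 27 = 0 := by simpa [hne] using hco 40 (by decide)
  have eb : k1 34 = 0 := by simpa [hne] using hco 44 (by decide)
  have ec : k2 25 = 0 := by simpa [hne] using hco 46 (by decide)
  have ed : k2 26 = 0 := by simpa [hne] using hco 47 (by decide)
  have he1 : e = 1 := by simp [he, ea, eb, ec, ed, sysF4.xG_zero]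
  rw [← hmr, he1, one_mul]
  exact mul_mem (mul_mem (Subgroup.mem_sup_left hl')
    (Subgroup.mem_sup_right (by rw [sysF4.diagonal_eq]; exact ⟨d, rfl⟩))) (Subgroup.mem_sup_left hzA)

theorem centralizer_pair :
    chevF4.group F ⊓ Subgroup.centralizer {sysF4.xG F 39 1 * sysF4.xG F 45 1} =
      chevF4.rootSubgroup F 33 ⊔ chevF4.rootSubgroup F 14 ⊔ chevF4.rootSubgroup F 24 ⊔
        chevF4.rootSubgroup F 23 ⊔
      Subgroup.closure {g : GL chevF4.Idx F | ∃ (r : ℕ) (c : F), chevF4.IsPosRoot r ∧
        r ∉ [27, 25, 34, 26] ∧ (g : Matrix chevF4.Idx chevF4.Idx F) = chevF4.x F r c} := by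
  have h := sysF4.centralizer_eq F (A := {r | r ∈ pairList}) (fun x hx => (show ∀ r ∈ pairList, r < 48 by decide +kernel) x hx)
    (pairList_le_centralizer F) (fun g hg hv => pair_cover F hg hv) fun d hd => by
      have hd' := sysF4.tor_conj_xProd F d (L := vList) (fun x hx => (pos_vList x hx).2)
        (fun r => if r = 39 then (1 : F) else if r = 45 then 1 else 0)
      rw [← pair_eq, hd, pair_eq] at hd'
      have hco := sysF4.xProd_inj F (by decide) pos_vList spread_vList hd'
      have e39 : torusVal chevF4 d 39 = 1 := by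
        have := hco 39 (by decide); simp at this; exact Units.ext this.symm
      have e45 : torusVal chevF4 d 45 = 1 := by
        have := hco 45 (by decide); simp at this; exact Units.ext this.symm
      rw [torusVal_four] at e39 e45
      simp [show chevF4.cartan 0 39 = 0 by decide +kernel,
          show chevF4.cartan 1 39 = -1 by decide +kernel,
          show chevF4.cartan 2 39 = 1 by decide +kernel,
          show chevF4.cartan 3 39 = 0 by decide +kernel] at e39
      simp [show chevF4.cartan 0 45 = 0 by decide +kernel,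
          show chevF4.cartan 1 45 = 2 by decide +kernel,
          show chevF4.cartan 2 45 = -1 by decide +kernel,
          show chevF4.cartan 3 45 = 0 by decide +kernel] at e45
      rw [inv_mul_eq_one] at e39
      rw [← e39, sq, mul_inv_cancel_right] at e45
      refine sysF4.tor_mem_genSub F d fun j hj => ?_
      replace hj : j < 4 := hj
      interval_cases j
      all_goals first | exact Or.inr e45 | exact Or.inr (e39.symm.trans e45) |
        exact Or.inl ⟨by simp [pairList, leviList, show chevF4.simple 0 = 33 by decide +kernel,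
          show chevF4.simple 3 = 24 by decide +kernel], by simp [pairList, leviList,
          show chevF4.neg (chevF4.simple 0) = 14 by decide +kernel,
          show chevF4.neg (chevF4.simple 3) = 23 by decide +kernel]⟩
  refine h.trans ?_
  rw [show Subgroup.closure {g : GL chevF4.Idx F | ∃ (r : ℕ) (c : F), chevF4.IsPosRoot r ∧
      r ∉ [27, 25, 34, 26] ∧ (g : Matrix chevF4.Idx chevF4.Idx F) = chevF4.x F r c} =
      genSub chevF4 F {r | chevF4.IsPosRoot r ∧ r ∉ [27, 25, 34, 26]} by
    simp only [genSub, Set.mem_setOf_eq, and_assoc]]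
  simp only [rootSubgroup_eq_genSub, genSub_union]
  congr 1
  ext r
  simp [pairList, leviList, pos_iff, List.mem_range'_1]
  omega

end CfsgLib.Chevalley.F4E
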