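import Cfsg.Agent.Chevalley.F4Mixed

/-!
Type `F₄` in characteristic two: the four standard involutions are pairwise not conjugate.
-/

set_option autoImplicit false

namespace CfsgLib.Chevalley.F4E

open Cfsg.Lie

/-- The four lists of roots. -/
def invReps : List (List ℕ) := [[47], [44], [47, 44], [39, 45]]

/-- The roots that can occur in a Borel conjugate. -/
def suppList (R : List ℕ) : List ℕ := if R = [39, 45] then vList else R

theorem suppList_facts : ∀ R ∈ invReps, (suppList R).Nodup ∧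
    ((suppList R).all fun r => decide (24 ≤ r) && decide (r < 48)) = true ∧
    ((suppList R).all fun r =>
      decide (tabF4.coord 4 2 (topIdx chevF4) < 2 * tabF4.coord 4 2 r)) = true ∧
    ∀ r ∈ R, r ∈ suppList R := by decide +kernel

variable (F : Type*) [Field F] [CharP F 2]

theorem borel_conj_rep {R : List ℕ} (hR : R ∈ invReps) {c : GL chevF4.Idx F}
    (hc : c ∈ chevF4.borelSubgroup F) :
    ∃ f : ℕ → F, (∀ r ∈ R, f r ≠ 0) ∧
      c * sysF4.xProd F R (fun _ => (1 : F)) * c⁻¹ = sysF4.xProd F (suppList R) f := by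
  by_cases h : R = [39, 45]
  · subst h
    obtain ⟨f, h1, h2, he⟩ := borel_conj_pair F hc
    refine ⟨f, by simp [h1, h2], ?_⟩
    rw [show suppList [39, 45] = vList from rfl, ← he]
    simp [Sys.xProd]
  · rw [suppList, if_neg h]
    obtain ⟨u, hu, d, rfl⟩ := (sysF4.mem_borel F).mp hc
    have hev : chkEvenComm chevF4 R (List.range' 24 24) = true :=
      (show ∀ R ∈ invReps, R ≠ [39, 45] → chkEvenComm chevF4 R (List.range' 24 24) = true by
        decide +kernel) R hR h
    have hlt : ∀ r ∈ R, r < chevF4.nroots := fun r hr =>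
      (show ∀ R ∈ invReps, ∀ r ∈ R, r < 48 by decide +kernel) R hR r hr
    refine ⟨fun r => (torusVal chevF4 d r : F) * 1, fun r _ => by simp, ?_⟩
    have hu' : u ∈ genSub chevF4 F {r | r ∈ List.range' 24 24} := by
      rw [posUnipotent_eq_genSub] at hu
      exact genSub_mono (fun r hr => List.mem_range'_1.mpr ((pos_iff r).mp hr)) hu
    rw [mul_inv_rev, show u * tor chevF4 F d * sysF4.xProd F R (fun _ => (1 : F)) *
      ((tor chevF4 F d)⁻¹ * u⁻¹) =
      u * (tor chevF4 F d * sysF4.xProd F R (fun _ => (1 : F)) * (tor chevF4 F d)⁻¹) * u⁻¹ by group,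
      sysF4.tor_conj_xProd F d hlt,
      Subgroup.mem_centralizer_singleton_iff.mp (sysF4.genSub_le_centralizer F hev hu'),
      mul_inv_cancel_right]

theorem conj_support {R₁ R₂ : List ℕ} (h₁ : R₁ ∈ invReps) (h₂ : R₂ ∈ invReps)
    {g : GL chevF4.Idx F} (hg : g ∈ chevF4.group F)
    (he : g * sysF4.xProd F R₁ (fun _ => (1 : F)) * g⁻¹ = sysF4.xProd F R₂ fun _ => 1) :
    ∃ n : ↥(chevF4.monomialSubgroup F), ∀ r ∈ R₁, ∀ hl : r < chevF4.nroots,
      (sysF4.perm F n ⟨r, hl⟩ : ℕ) ∈ suppList R₂ := by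
  obtain ⟨a, ha, n, hn, c, hc, rfl⟩ := sysF4.exists_bruhat F hg
  obtain ⟨f, hf, hfe⟩ := borel_conj_rep F h₁ hc
  obtain ⟨f', -, hfe'⟩ := borel_conj_rep F h₂ (inv_mem ha)
  obtain ⟨hnd₁, hpos₁, hsp₁, hsub₁⟩ := suppList_facts R₁ h₁
  obtain ⟨-, hpos₂, hsp₂, -⟩ := suppList_facts R₂ h₂
  refine ⟨⟨n, hn⟩, fun r hr hl => ?_⟩
  have hs1 := spread_list (m := 2) (by omega) hsp₁
  have hs2 := spread_list (m := 2) (by omega) hsp₂
  refine sysF4.perm_support F ⟨n, hn⟩ hnd₁ (pos_range hpos₁) hs1 (f := f)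
    (sysF4.closed_of_spread hs2) ?_ r (hsub₁ r hr) (hf r hr)
  show n * sysF4.xProd F (suppList R₁) f * n⁻¹ ∈ _
  rw [← hfe, show n * (c * sysF4.xProd F R₁ (fun _ => (1 : F)) * c⁻¹) * n⁻¹ =
    a⁻¹ * (a * n * c * sysF4.xProd F R₁ (fun _ => (1 : F)) * (a * n * c)⁻¹) * a⁻¹⁻¹ by group,
    he, hfe']
  exact sysF4.xProd_mem F (pos_range hpos₂) fun r hr _ => hr

theorem sep_invReps : ∀ R₁ ∈ invReps, ∀ R₂ ∈ invReps, ∀ h ∈ chevF4.group F,
    h * sysF4.xProd F R₁ (fun _ => (1 : F)) * h⁻¹ = sysF4.xProd F R₂ (fun _ => 1) → R₁ = R₂ := by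
  intro R₁ h₁ R₂ h₂ h hh e
  have e' : h⁻¹ * sysF4.xProd F R₂ (fun _ => (1 : F)) * h⁻¹⁻¹ =
      sysF4.xProd F R₁ fun _ => 1 := by rw [← e]; group
  have hl : ∀ r, r < 48 → r < chevF4.nroots := fun r hr => hr
  have h47 := hl 47 (by omega)
  have h44 := hl 44 (by omega)
  have h39 := hl 39 (by omega)
  have h45 := hl 45 (by omega)
  -- a pair of roots never lands in a single root
  have two : ∀ {a b x : ℕ} (n : ↥(chevF4.monomialSubgroup F)) (ha : a < chevF4.nroots)
      (hb : b < chevF4.nroots), a ≠ b →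
      (sysF4.perm F n ⟨a, ha⟩ : ℕ) ∈ [x] → (sysF4.perm F n ⟨b, hb⟩ : ℕ) ∈ [x] → False := by
    intro a b x n ha hb hab h1 h2
    rw [List.mem_singleton] at h1 h2
    exact hab (by simpa using (sysF4.perm F n).injective (Fin.ext (h1.trans h2.symm)))
  have mixedA : ∀ {R : List ℕ} (g : GL chevF4.Idx F), g ∈ chevF4.group F → R ∈ invReps →
      R ≠ [39, 45] → g * sysF4.xProd F [39, 45] (fun _ => (1 : F)) * g⁻¹ =
        sysF4.xProd F R (fun _ => 1) → False := by
    intro R g hg hR hne he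
    obtain ⟨n, hn⟩ := conj_support F (by simp [invReps]) hR hg he
    have m1 := hn 39 (by simp) h39
    have m2 := hn 45 (by simp) h45
    rw [suppList, if_neg hne] at m1 m2
    have key : ∀ R ∈ invReps, R ≠ [39, 45] → ∀ x ∈ R, ∀ y ∈ R,
        chevF4.pairing x y = 0 → False := by decide +kernel
    have hz : chevF4.pairing 39 45 = 0 := by decide +kernel
    exact key R hR hne _ m1 _ m2 (by rw [pairing_perm]; exact hz)
  have mixedB : ∀ {R : List ℕ} (g : GL chevF4.Idx F), g ∈ chevF4.group F →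
      R ∈ [[47], [44]] → g * sysF4.xProd F [47, 44] (fun _ => (1 : F)) * g⁻¹ =
        sysF4.xProd F R (fun _ => 1) → False := by
    intro R g hg hR he
    have hR' : R ∈ invReps := by
      simp only [List.mem_cons, List.not_mem_nil, or_false] at hR
      rcases hR with rfl | rfl <;> simp [invReps]
    obtain ⟨n, hn⟩ := conj_support F (by simp [invReps]) hR' hg he
    have m1 := hn 47 (by simp) h47
    have m2 := hn 44 (by simp) h44
    simp only [List.mem_cons, List.not_mem_nil, or_false] at hR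
    rcases hR with rfl | rfl <;> exact two n h47 h44 (by omega) m1 m2
  have mixedC : ∀ (g : GL chevF4.Idx F), g ∈ chevF4.group F →
      g * sysF4.xProd F [47] (fun _ => (1 : F)) * g⁻¹ =
        sysF4.xProd F [44] (fun _ => 1) → False := by
    intro g hg he
    obtain ⟨n, hn⟩ := conj_support F (by simp [invReps]) (by simp [invReps]) hg he
    have m1 : (sysF4.perm F n ⟨47, h47⟩ : ℕ) = 44 := List.mem_singleton.mp (hn 47 (by simp) h47)
    have key : ∀ z < 48, chevF4.pairing z 44 = 2 → z = 44 := by decide +kernel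
    have h47' : chevF4.pairing 44 47 = 2 := by decide +kernel
    have hz := key _ (Fin.isLt (sysF4.perm F n ⟨44, h44⟩)) (by
      have h := pairing_perm F n ⟨44, h44⟩ ⟨47, h47⟩
      rw [m1] at h
      exact h.trans h47')
    have := (sysF4.perm F n).injective (Fin.ext (m1.trans hz.symm))
    simp at this
  simp only [invReps, List.mem_cons, List.not_mem_nil, or_false] at h₁ h₂
  rcases h₁ with rfl | rfl | rfl | rfl <;> rcases h₂ with rfl | rfl | rfl | rfl
  · rfl
  · exact (mixedC h hh e).elim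
  · exact (mixedB h⁻¹ (inv_mem hh) (by decide) e').elim
  · exact (mixedA h⁻¹ (inv_mem hh) (by decide) (by decide) e').elim
  · exact (mixedC h⁻¹ (inv_mem hh) e').elim
  · rfl
  · exact (mixedB h⁻¹ (inv_mem hh) (by decide) e').elim
  · exact (mixedA h⁻¹ (inv_mem hh) (by decide) (by decide) e').elim
  · exact (mixedB h hh (by decide) e).elim
  · exact (mixedB h hh (by decide) e).elim
  · rfl
  · exact (mixedA h⁻¹ (inv_mem hh) (by decide) (by decide) e').elim
  · exact (mixedA h hh (by decide) (by decide) e).elim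
  · exact (mixedA h hh (by decide) (by decide) e).elim
  · exact (mixedA h hh (by decide) (by decide) e).elim
  · rfl

end CfsgLib.Chevalley.F4E
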