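import Cfsg.Agent.Chevalley.G2EvenMul
import Cfsg.Agent.Chevalley.Support
import Cfsg.Agent.Chevalley.HighRoot
import Cfsg.Agent.S1059

/-!
Type `G₂` in characteristic two: the involutions and their centralisers.
-/

set_option autoImplicit false
set_option linter.unusedSectionVars false

namespace CfsgLib.Chevalley.G2E

open Cfsg.Lie
open scoped Pointwise

variable (F : Type*) [Field F] [CharP F 2]

/-- The coordinate function of `uE`. -/
def coord6 (a b c d e f : F) : ℕ → F := fun r => [a, b, c, d, e, f].getD (r - 6) 0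

theorem uE_eq_ordProd (a b c d e f : F) :
    uE F a b c d e f = sysG2.ordProd F (coord6 F a b c d e f) 6 := by
  rw [sysG2.ordProd_succ F _ (show 6 < chevG2.nroots by decide +kernel),
    sysG2.ordProd_succ F _ (show 7 < chevG2.nroots by decide +kernel),
    sysG2.ordProd_succ F _ (show 8 < chevG2.nroots by decide +kernel),
    sysG2.ordProd_succ F _ (show 9 < chevG2.nroots by decide +kernel),
    sysG2.ordProd_succ F _ (show 10 < chevG2.nroots by decide +kernel),
    sysG2.ordProd_succ F _ (show 11 < chevG2.nroots by decide +kernel),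
    sysG2.ordProd_of_le F _ (show chevG2.nroots ≤ 12 by decide +kernel)]
  simp [uE, coord6, xr]

theorem half_nroots : chevG2.nroots / 2 = 6 := by decide +kernel

theorem uE_inj {a b c d e f A B C D E G : F} (h : uE F a b c d e f = uE F A B C D E G) :
    a = A ∧ b = B ∧ c = C ∧ d = D ∧ e = E ∧ f = G := by
  rw [uE_eq_ordProd, uE_eq_ordProd] at h
  have key : ∀ r, 6 ≤ r → r < 12 → coord6 F a b c d e f r = coord6 F A B C D E G r :=
    fun r h1 h2 => sysG2.ordProd_inj F _ 6 (by decide +kernel) le_rfl _ _ h r h1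
      (lt_of_lt_of_le h2 (by decide +kernel))
  refine ⟨?_, ?_, ?_, ?_, ?_, ?_⟩
  · simpa [coord6] using key 6 (by norm_num) (by norm_num)
  · simpa [coord6] using key 7 (by norm_num) (by norm_num)
  · simpa [coord6] using key 8 (by norm_num) (by norm_num)
  · simpa [coord6] using key 9 (by norm_num) (by norm_num)
  · simpa [coord6] using key 10 (by norm_num) (by norm_num)
  · simpa [coord6] using key 11 (by norm_num) (by norm_num)

theorem xr_mem_pos {r : ℕ} (h1 : 6 ≤ r) (h2 : r < 12) (t : F) :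
    xr F r t ∈ chevG2.posUnipotent F := by
  rw [← uSub_univ]
  exact sysG2.xG_mem_uSub F (Set.mem_univ _) (by rw [half_nroots]; exact h1)
    (lt_of_lt_of_le h2 (by decide +kernel)) t

theorem uE_mem_pos (a b c d e f : F) : uE F a b c d e f ∈ chevG2.posUnipotent F := by
  unfold uE
  refine mul_mem ?_ (mul_mem ?_ (mul_mem ?_ (mul_mem ?_ (mul_mem ?_ ?_)))) <;>
    exact xr_mem_pos F (by norm_num) (by norm_num) _

theorem exists_uE_of_uSub {P : Set ℕ} (hP : sysG2.Closed P) {g : GL chevG2.Idx F}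
    (hg : g ∈ uSub chevG2 F P) : ∃ a b c d e f : F, g = uE F a b c d e f ∧
      (6 ∉ P → a = 0) := by
  obtain ⟨t, ht, rfl⟩ := sysG2.exists_ordProd_half F hP hg
  refine ⟨t 6, t 7, t 8, t 9, t 10, t 11, ?_, fun h6 => ?_⟩
  · rw [uE_eq_ordProd, half_nroots]
    refine sysG2.ordProd_congr F fun r h1 h2 => ?_
    replace h2 : r < 12 := h2
    interval_cases r <;> simp [coord6]
  · by_contra h
    exact h6 (ht 6 h).1

theorem exists_uE {g : GL chevG2.Idx F} (hg : g ∈ chevG2.posUnipotent F) :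
    ∃ a b c d e f : F, g = uE F a b c d e f := by
  rw [← uSub_univ] at hg
  obtain ⟨a, b, c, d, e, f, h, -⟩ := exists_uE_of_uSub F sysG2.closed_univ hg
  exact ⟨a, b, c, d, e, f, h⟩

theorem uE_zero : uE F 0 0 0 0 0 0 = 1 := by simp [uE, xr, sysG2.xG_zero]

theorem x6_eq (t : F) : xr F 6 t = uE F t 0 0 0 0 0 := by simp [uE, xr, sysG2.xG_zero]
theorem x7_eq (t : F) : xr F 7 t = uE F 0 t 0 0 0 0 := by simp [uE, xr, sysG2.xG_zero]
theorem x8_eq (t : F) : xr F 8 t = uE F 0 0 t 0 0 0 := by simp [uE, xr, sysG2.xG_zero]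
theorem x9_eq (t : F) : xr F 9 t = uE F 0 0 0 t 0 0 := by simp [uE, xr, sysG2.xG_zero]
theorem x10_eq (t : F) : xr F 10 t = uE F 0 0 0 0 t 0 := by simp [uE, xr, sysG2.xG_zero]
theorem x11_eq (t : F) : xr F 11 t = uE F 0 0 0 0 0 t := by simp [uE, xr, sysG2.xG_zero]

theorem two_eq : (2 : F) = 0 := CharTwo.two_eq_zero

theorem xr_inv (r : ℕ) (t : F) : (xr F r t)⁻¹ = xr F r t := by
  rw [xr, sysG2.xG_inv, CharTwo.neg_eq]

/-- Conjugates of `x₉(k)` under `U`. -/
theorem uE_conj_nine (a b c d e f k : F) :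
    uE F a b c d e f * uE F 0 0 0 k 0 0 * (uE F a b c d e f)⁻¹ =
      uE F 0 0 0 k (b * k) (a * b * k + c * k) := by
  rw [mul_inv_eq_iff_eq_mul, uE_mul, uE_mul]
  have h2 := two_eq F
  congr 1 <;> grind

/-- Conjugates of `x₉` under the Borel subgroup. -/
theorem borel_conj_nine {g : GL chevG2.Idx F} (hg : g ∈ chevG2.borelSubgroup F) {t : F}
    (ht : t ≠ 0) : ∃ k η φ : F, k ≠ 0 ∧ g * xr F 9 t * g⁻¹ = uE F 0 0 0 k η φ := by
  obtain ⟨u, hu, s, rfl⟩ := (sysG2.mem_borel F).mp hg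
  obtain ⟨a, b, c, d, e, f, rfl⟩ := exists_uE F hu
  refine ⟨(torusVal chevG2 s 9 : F) * t, b * ((torusVal chevG2 s 9 : F) * t),
    a * b * ((torusVal chevG2 s 9 : F) * t) + c * ((torusVal chevG2 s 9 : F) * t),
    mul_ne_zero (Units.ne_zero _) ht, ?_⟩
  rw [mul_inv_rev, show uE F a b c d e f * tor chevG2 F s * xr F 9 t *
      ((tor chevG2 F s)⁻¹ * (uE F a b c d e f)⁻¹) =
    uE F a b c d e f * (tor chevG2 F s * xr F 9 t * (tor chevG2 F s)⁻¹) * (uE F a b c d e f)⁻¹
      by group, xr, sysG2.tor_conj F s (by decide +kernel), ← xr, x9_eq, uE_conj_nine]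

/-- Conjugates of `x₁₁` under the Borel subgroup. -/
theorem borel_conj_eleven {g : GL chevG2.Idx F} (hg : g ∈ chevG2.borelSubgroup F) {t : F}
    (ht : t ≠ 0) : ∃ k : F, k ≠ 0 ∧ g * xr F 11 t * g⁻¹ = xr F 11 k := by
  obtain ⟨u, hu, s, rfl⟩ := (sysG2.mem_borel F).mp hg
  obtain ⟨a, b, c, d, e, f, rfl⟩ := exists_uE F hu
  refine ⟨(torusVal chevG2 s 11 : F) * t, mul_ne_zero (Units.ne_zero _) ht, ?_⟩
  rw [mul_inv_rev, show uE F a b c d e f * tor chevG2 F s * xr F 11 t *
      ((tor chevG2 F s)⁻¹ * (uE F a b c d e f)⁻¹) =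
    uE F a b c d e f * (tor chevG2 F s * xr F 11 t * (tor chevG2 F s)⁻¹) * (uE F a b c d e f)⁻¹
      by group, xr, sysG2.tor_conj F s (by decide +kernel), ← xr, x11_eq,
    mul_inv_eq_iff_eq_mul, uE_mul, uE_mul]
  congr 1 <;> ring

theorem wperm_mem_orbit {O : List ℕ}
    (hO : ∀ s ∈ O, ∀ i < chevG2.rank, chevG2.reflectRoot i s ∈ O)
    (L : List (Fin chevG2.rank)) {s : Fin chevG2.nroots} (hs : (s : ℕ) ∈ O) :
    (sysG2.wperm L s : ℕ) ∈ O := by
  induction L with
  | nil => simpa [Sys.wperm] using hs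
  | cons i L ih =>
    rw [sysG2.wperm_cons, Equiv.Perm.mul_apply, sysG2.srefl_val]
    exact hO _ ih i i.isLt

theorem perm_short (n : ↥(chevG2.monomialSubgroup F)) :
    (sysG2.perm F n ⟨9, by decide +kernel⟩ : ℕ) ∈ [2, 3, 4, 7, 8, 9] := by
  obtain ⟨L, hL⟩ := sysG2.exists_wperm F n
  rw [hL]
  exact wperm_mem_orbit (by decide +kernel) L (by simp)

theorem perm_long (n : ↥(chevG2.monomialSubgroup F)) {r : Fin chevG2.nroots}
    (hr : (r : ℕ) ∈ [0, 1, 5, 6, 10, 11]) :
    (sysG2.perm F n r : ℕ) ∈ [0, 1, 5, 6, 10, 11] := by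
  obtain ⟨L, hL⟩ := sysG2.exists_wperm F n
  rw [hL]
  exact wperm_mem_orbit (by decide +kernel) L hr

theorem not_mem_pos_of_conj_neg (n : ↥(chevG2.monomialSubgroup F)) {r : Fin chevG2.nroots}
    (hr : (sysG2.perm F n r : ℕ) < 6) (t : F) :
    (n : GL chevG2.Idx F) * xr F r t * (n : GL chevG2.Idx F)⁻¹ ∈ chevG2.negUnipotent F := by
  obtain ⟨k, -, hk⟩ := sysG2.conj_root F n r
  rw [(hk t).1]
  exact sysG2.xG_mem_negUnipotent F (by rw [half_nroots]; exact hr) _

theorem pos_inf_neg {g : GL chevG2.Idx F} (h1 : g ∈ chevG2.posUnipotent F)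
    (h2 : g ∈ chevG2.negUnipotent F) : g = 1 := by
  have h : g ∈ chevG2.borelSubgroup F ⊓ chevG2.negUnipotent F :=
    ⟨Subgroup.mem_sup_left h1, h2⟩
  rwa [sysG2.borel_inf_neg F, Subgroup.mem_bot] at h

/-- Elements of `U` without `a`, `a + b` coordinates. -/
def LowFlat (g : GL chevG2.Idx F) : Prop := ∃ a d e f : F, g = uE F a 0 0 d e f

theorem lowFlat_mul {g h : GL chevG2.Idx F} (hg : LowFlat F g) (hh : LowFlat F h) :
    LowFlat F (g * h) := by
  obtain ⟨a, d, e, f, rfl⟩ := hg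
  obtain ⟨A, D, E, G, rfl⟩ := hh
  rw [uE_mul]
  refine ⟨a + A, d + D, e + E, f + A * e + G, ?_⟩
  congr 1 <;> ring

theorem lowFlat_long {r : ℕ} (hr : r ∈ [0, 1, 5, 6, 10, 11]) (hp : 6 ≤ r) (t : F) :
    LowFlat F (xr F r t) := by
  simp only [List.mem_cons, List.not_mem_nil, or_false] at hr
  rcases hr with rfl | rfl | rfl | rfl | rfl | rfl
  · omega
  · omega
  · omega
  · exact ⟨t, 0, 0, 0, x6_eq F t⟩
  · exact ⟨0, 0, t, 0, x10_eq F t⟩
  · exact ⟨0, 0, 0, t, x11_eq F t⟩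

theorem conj_single (n : GL chevG2.Idx F) (d e f : F) :
    n * uE F 0 0 0 d e f * n⁻¹ =
      (n * xr F 9 d * n⁻¹) * (n * xr F 10 e * n⁻¹) * (n * xr F 11 f * n⁻¹) := by
  rw [show uE F 0 0 0 d e f = xr F 9 d * xr F 10 e * xr F 11 f by
    simp [uE, xr, sysG2.xG_zero, mul_assoc]]
  group

/-- An element of `N` carrying a conjugate of `x₉` to another one fixes the root `9`. -/
theorem perm_nine_of_conj (n : ↥(chevG2.monomialSubgroup F)) {d e f l η φ : F} (hd : d ≠ 0)
    (hl : l ≠ 0)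
    (h : (n : GL chevG2.Idx F) * uE F 0 0 0 d e f * (n : GL chevG2.Idx F)⁻¹ =
      uE F 0 0 0 l η φ) :
    (sysG2.perm F n ⟨9, by decide +kernel⟩ : ℕ) = 9 := by
  classical
  set r9 : Fin chevG2.nroots := ⟨9, by decide +kernel⟩ with h9
  set r10 : Fin chevG2.nroots := ⟨10, by decide +kernel⟩ with h10
  set r11 : Fin chevG2.nroots := ⟨11, by decide +kernel⟩ with h11
  let pp : Fin chevG2.nroots → F → F := fun r v => if 6 ≤ (sysG2.perm F n r : ℕ) then v else 0
  let qq : Fin chevG2.nroots → F → F := fun r v => if 6 ≤ (sysG2.perm F n r : ℕ) then 0 else v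
  set yp := uE F 0 0 0 (pp r9 d) (pp r10 e) (pp r11 f) with hyp
  set yq := uE F 0 0 0 (qq r9 d) (qq r10 e) (qq r11 f) with hyq
  have hsplit : uE F 0 0 0 d e f = yp * yq := by
    rw [hyp, hyq, uE_mul]
    congr 1 <;> simp [pp, qq] <;> split_ifs <;> simp
  have hP : ∀ (r : Fin chevG2.nroots) (v : F),
      (n : GL chevG2.Idx F) * xr F r (pp r v) * (n : GL chevG2.Idx F)⁻¹ ∈
        chevG2.posUnipotent F := by
    intro r v
    simp only [pp]
    split_ifs with hc
    · obtain ⟨k, -, hk⟩ := sysG2.conj_root F n r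
      rw [(hk v).1]
      exact xr_mem_pos F hc (lt_of_lt_of_le (Fin.isLt _) (by decide +kernel)) _
    · simp [xr, sysG2.xG_zero]
  have hQ : ∀ (r : Fin chevG2.nroots) (v : F),
      (n : GL chevG2.Idx F) * xr F r (qq r v) * (n : GL chevG2.Idx F)⁻¹ ∈
        chevG2.negUnipotent F := by
    intro r v
    simp only [qq]
    split_ifs with hc
    · simp [xr, sysG2.xG_zero]
    · exact not_mem_pos_of_conj_neg F n (by omega) _
  have hp' : (n : GL chevG2.Idx F) * yp * (n : GL chevG2.Idx F)⁻¹ ∈ chevG2.posUnipotent F := by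
    rw [hyp, conj_single]
    exact mul_mem (mul_mem (hP r9 d) (hP r10 e)) (hP r11 f)
  have hq' : (n : GL chevG2.Idx F) * yq * (n : GL chevG2.Idx F)⁻¹ ∈ chevG2.negUnipotent F := by
    rw [hyq, conj_single]
    exact mul_mem (mul_mem (hQ r9 d) (hQ r10 e)) (hQ r11 f)
  have hq1 : (n : GL chevG2.Idx F) * yq * (n : GL chevG2.Idx F)⁻¹ = 1 := by
    refine pos_inf_neg F ?_ hq'
    have e1 : (n : GL chevG2.Idx F) * yq * (n : GL chevG2.Idx F)⁻¹ =
        ((n : GL chevG2.Idx F) * yp * (n : GL chevG2.Idx F)⁻¹)⁻¹ * uE F 0 0 0 l η φ := by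
      rw [← h, hsplit]; group
    rw [e1]
    exact mul_mem (inv_mem hp') (uE_mem_pos F _ _ _ _ _ _)
  rw [conj_eq_one_iff, hyq, ← uE_zero F] at hq1
  obtain ⟨-, -, -, z9, z10, z11⟩ := uE_inj F hq1
  have h9pos : 6 ≤ (sysG2.perm F n r9 : ℕ) := by
    by_contra hc
    exact hd (by simpa [qq, hc] using z9)
  have hLow : ∀ (r : Fin chevG2.nroots) (v : F), (r : ℕ) ∈ [0, 1, 5, 6, 10, 11] → qq r v = 0 →
      LowFlat F ((n : GL chevG2.Idx F) * xr F r v * (n : GL chevG2.Idx F)⁻¹) := by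
    intro r v hr hv
    obtain ⟨k, -, hk⟩ := sysG2.conj_root F n r
    rw [(hk v).1]
    by_cases hc : 6 ≤ (sysG2.perm F n r : ℕ)
    · exact lowFlat_long F (perm_long F n hr) hc _
    · have hv0 : v = 0 := by simpa [qq, hc] using hv
      subst hv0
      exact ⟨0, 0, 0, 0, by simp [xr, sysG2.xG_zero, uE_zero]⟩
  obtain ⟨k, hk0, hk⟩ := sysG2.conj_root F n r9
  have key : LowFlat F (xr F (sysG2.perm F n r9) (k * d)) := by
    have e1 : xr F (sysG2.perm F n r9) (k * d) = uE F 0 0 0 l η φ *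
        ((n : GL chevG2.Idx F) * xr F 11 f * (n : GL chevG2.Idx F)⁻¹) *
        ((n : GL chevG2.Idx F) * xr F 10 e * (n : GL chevG2.Idx F)⁻¹) := by
      have e2 : ∀ (r : ℕ) (v : F),
          (n : GL chevG2.Idx F) * xr F r v * (n : GL chevG2.Idx F)⁻¹ =
          ((n : GL chevG2.Idx F) * xr F r v * (n : GL chevG2.Idx F)⁻¹)⁻¹ := fun r v => by
        rw [mul_inv_rev, mul_inv_rev, inv_inv, xr_inv, mul_assoc]
      rw [e2 11 f, e2 10 e, ← h, conj_single]
      show sysG2.xG F (sysG2.perm F n r9) (k * d) = _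
      rw [← (hk d).1]
      group
      rfl
    rw [e1]
    exact lowFlat_mul F (lowFlat_mul F ⟨0, l, η, φ, rfl⟩ (hLow r11 f (by simp [h11]) z11))
      (hLow r10 e (by simp [h10]) z10)
  have hs := perm_short F n
  rw [← h9] at hs
  simp only [List.mem_cons, List.not_mem_nil, or_false] at hs
  obtain ⟨A, B, E, G, hkey⟩ := key
  rcases hs with e' | e' | e' | e' | e' | e'
  · omega
  · omega
  · omega
  · rw [e', x7_eq] at hkey
    exact absurd (uE_inj F hkey).2.1 (mul_ne_zero hk0 hd)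
  · rw [e', x8_eq] at hkey
    exact absurd (uE_inj F hkey).2.2.1 (mul_ne_zero hk0 hd)
  · exact e'

/-- `x₁₁` is not conjugate to `x₉`. -/
theorem not_conj_eleven_nine {g : GL chevG2.Idx F} (hg : g ∈ chevG2.group F) :
    g * xr F 11 1 * g⁻¹ ≠ xr F 9 1 := by
  intro h
  obtain ⟨a, ha, n, hn, c, hc, rfl⟩ := sysG2.exists_bruhat F hg
  obtain ⟨k, hk0, hk⟩ := borel_conj_eleven F hc one_ne_zero
  obtain ⟨l, η, φ, hl0, hl⟩ := borel_conj_nine F (inv_mem ha) (one_ne_zero (α := F))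
  set nn : ↥(chevG2.monomialSubgroup F) := ⟨n, hn⟩
  obtain ⟨m, -, hm⟩ := sysG2.conj_root F nn ⟨11, by decide +kernel⟩
  have e : xr F (sysG2.perm F nn ⟨11, by decide +kernel⟩) (m * k) = uE F 0 0 0 l η φ := by
    calc _ = n * xr F 11 k * n⁻¹ := (hm k).1.symm
      _ = a⁻¹ * (a * n * c * xr F 11 1 * (a * n * c)⁻¹) * a⁻¹⁻¹ := by rw [← hk]; group
      _ = _ := by rw [h, hl]
  have h11 := perm_long F nn (r := ⟨11, by decide +kernel⟩) (by simp)
  rcases lt_or_ge (sysG2.perm F nn ⟨11, by decide +kernel⟩ : ℕ) 6 with hn6 | hp6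
  · have h1 : xr F (sysG2.perm F nn ⟨11, by decide +kernel⟩) (m * k) = 1 :=
      pos_inf_neg F (e ▸ uE_mem_pos F _ _ _ _ _ _)
        (sysG2.xG_mem_negUnipotent F (by rw [half_nroots]; exact hn6) _)
    rw [h1, ← uE_zero F] at e
    exact hl0 (uE_inj F e).2.2.2.1.symm
  · simp only [List.mem_cons, List.not_mem_nil, or_false] at h11
    rcases h11 with h' | h' | h' | h' | h' | h' <;> try omega
    all_goals rw [h'] at e
    · rw [x6_eq] at e; exact hl0 (uE_inj F e).2.2.2.1.symm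
    · rw [x10_eq] at e; exact hl0 (uE_inj F e).2.2.2.1.symm
    · rw [x11_eq] at e; exact hl0 (uE_inj F e).2.2.2.1.symm

/-- The stabiliser of the root `9` lies in the Levi subgroup of the long fundamental root. -/
theorem mem_levi_of_fix (n : ↥(chevG2.monomialSubgroup F))
    (h : (sysG2.perm F n ⟨9, by decide +kernel⟩ : ℕ) = 9) :
    (n : GL chevG2.Idx F) ∈ chevG2.leviSubgroup F {1} := by
  have hS := supportEq_of_chk checkedG2 chkSupp_G2
  set r9 : Fin chevG2.nroots := ⟨9, by decide +kernel⟩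
  have hpair : ∀ (m : ↥(chevG2.monomialSubgroup F)), (sysG2.perm F m r9 : ℕ) = 9 →
      ∀ r : Fin chevG2.nroots, chevG2.pairing 9 (sysG2.perm F m r) = chevG2.pairing 9 r := by
    intro m hm r
    obtain ⟨L, hL⟩ := sysG2.exists_wperm F m
    have := sysG2.pairing_wperm L r9 r
    rw [← hL, hm] at this
    exact this
  have hfin : ∀ (m : ↥(chevG2.monomialSubgroup F)), (sysG2.perm F m r9 : ℕ) = 9 →
      (sysG2.perm F m ⟨6, by decide +kernel⟩ : ℕ) = 6 → (m : GL chevG2.Idx F) ∈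
        chevG2.leviSubgroup F {1} := by
    intro m hm h6
    have h7 : 6 ≤ (sysG2.perm F m ⟨7, by decide +kernel⟩ : ℕ) := by
      have h1 := hpair m hm ⟨7, by decide +kernel⟩
      have h2 : ∀ r < 6, chevG2.pairing 9 r ≠ chevG2.pairing 9 7 := by decide +kernel
      by_contra hlt
      exact h2 _ (by omega) h1
    obtain ⟨L, hL⟩ := sysG2.exists_wperm F m
    have h1 : sysG2.wperm L = 1 := by
      refine sysG2.wperm_eq_one F L fun s hs => sysG2.keeps_sub (J := List.range chevG2.rank)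
        (fun j _ => ?_) (fun k hk hkJ => absurd (List.mem_range.mpr hk) hkJ) hs
      rw [← hL, half_nroots]
      have h01 : (j : ℕ) = 0 ∨ (j : ℕ) = 1 := by
        have : (j : ℕ) < 2 := j.isLt
        omega
      rcases h01 with e | e
      · rw [show sysG2.simpleF j = ⟨7, by decide +kernel⟩ from Fin.ext (by
          show chevG2.simple j = 7; rw [e]; decide +kernel)]
        exact h7
      · rw [show sysG2.simpleF j = ⟨6, by decide +kernel⟩ from Fin.ext (by
          show chevG2.simple j = 6; rw [e]; decide +kernel), h6]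
    have h2 : m ∈ hSub chevG2 F := by rw [← sysG2.ker_perm, MonoidHom.mem_ker, hL, h1]
    exact Subgroup.mem_sup_left h2
  have h6 : (sysG2.perm F n ⟨6, by decide +kernel⟩ : ℕ) = 5 ∨
      (sysG2.perm F n ⟨6, by decide +kernel⟩ : ℕ) = 6 := by
    have h1 := hpair n h ⟨6, by decide +kernel⟩
    have h2 : ∀ r < chevG2.nroots, chevG2.pairing 9 r = chevG2.pairing 9 6 → r = 5 ∨ r = 6 := by
      decide +kernel
    exact h2 _ (Fin.isLt _) h1
  rcases h6 with h6 | h6
  swap
  · exact hfin n h h6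
  set i1 : Fin chevG2.rank := ⟨1, by decide +kernel⟩
  have hp : sysG2.perm F (n * sysG2.nN F i1) = sysG2.perm F n * sysG2.srefl i1 := by
    rw [map_mul, sysG2.perm_nN]
  have h9' : sysG2.srefl i1 r9 = r9 := Fin.ext (by
    show chevG2.reflectRoot 1 9 = 9; decide +kernel)
  have h6' : sysG2.srefl i1 ⟨6, by decide +kernel⟩ = sysG2.negF ⟨6, by decide +kernel⟩ := Fin.ext (by
    show chevG2.reflectRoot 1 6 = chevG2.neg 6; decide +kernel)
  have hm := hfin (n * sysG2.nN F i1) (by rw [hp, Equiv.Perm.mul_apply, h9', h]) (by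
    rw [hp, Equiv.Perm.mul_apply, h6', sysG2.perm_negF, sysG2.negF_val, h6]
    decide +kernel)
  rw [Subgroup.coe_mul] at hm
  have hn1 : sysG2.nG F (chevG2.simple 1) 1 ∈ chevG2.leviSubgroup F {1} :=
    sysG2.nG_mem_levi F hS rfl (by decide +kernel)
  simpa [Sys.nN, i1] using mul_mem hm (inv_mem hn1)

theorem inRootSub_cases {r : ℕ} (hr : chevG2.InRootSub {1} r) : r = 5 ∨ r = 6 := by
  obtain ⟨h1, h2⟩ := hr
  have h3 := h2 0 (by decide +kernel) (by simp)
  have h4 : ∀ r < chevG2.nroots, (chevG2.coroot.getD r #[]).getD 0 0 = 0 → r = 5 ∨ r = 6 := by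
    decide +kernel
  exact h4 r h1 h3

theorem levi_conj_nine {g : GL chevG2.Idx F} (hg : g ∈ chevG2.leviSubgroup F {1}) :
    ∃ k : Fˣ, ∀ u : F, g * xr F 9 u * g⁻¹ = xr F 9 ((k : F) * u) := by
  rw [ChevalleyDatum.leviSubgroup, sysG2.diagonal_eq, ← Subgroup.closure_eq (tor chevG2 F).range,
    ← Subgroup.closure_union] at hg
  induction hg using Subgroup.closure_induction with
  | mem x hx =>
    rcases hx with ⟨s, rfl⟩ | ⟨r, t, hr, hx⟩
    · exact ⟨torusVal chevG2 s 9, fun u => sysG2.tor_conj F s (by decide +kernel) u⟩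
    · refine ⟨1, fun u => ?_⟩
      rw [sysG2.eq_xG F hx, Units.val_one, one_mul, mul_inv_eq_iff_eq_mul]
      rcases inRootSub_cases hr with rfl | rfl
      · exact (c_triv F (r := 5) (s := 9) (by decide +kernel) (by decide +kernel) (by decide)
          (by decide +kernel) (by decide +kernel) t u).symm
      · exact (c96 F t u).symm
  | one => exact ⟨1, fun u => by simp⟩
  | mul x y _ _ hx hy =>
    obtain ⟨k, hk⟩ := hx
    obtain ⟨l, hl⟩ := hy
    refine ⟨k * l, fun u => ?_⟩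
    rw [show x * y * xr F 9 u * (x * y)⁻¹ = x * (y * xr F 9 u * y⁻¹) * x⁻¹ by group, hl, hk,
      Units.val_mul, mul_assoc]
  | inv x _ hx =>
    obtain ⟨k, hk⟩ := hx
    refine ⟨k⁻¹, fun u => ?_⟩
    have e := hk ((k⁻¹ : Fˣ) * u)
    rw [← mul_assoc, Units.mul_inv, one_mul] at e
    rw [← e]
    group

/-- The subgroup generated by the root subgroups of `9, 10, 11, 6, 5`. -/
def nineSub : Subgroup (GL chevG2.Idx F) :=
  chevG2.rootSubgroup F 9 ⊔ chevG2.rootSubgroup F 10 ⊔ chevG2.rootSubgroup F 11 ⊔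
    chevG2.rootSubgroup F 6 ⊔ chevG2.rootSubgroup F 5

theorem xr_mem_root (r : ℕ) (t : F) : xr F r t ∈ chevG2.rootSubgroup F r :=
  (sysG2.mem_rootSubgroup F).mpr ⟨t, rfl⟩

theorem xr_mem_nineSub {r : ℕ} (hr : r ∈ [9, 10, 11, 6, 5]) (t : F) : xr F r t ∈ nineSub F := by
  simp only [List.mem_cons, List.not_mem_nil, or_false] at hr
  unfold nineSub
  rcases hr with rfl | rfl | rfl | rfl | rfl
  · exact Subgroup.mem_sup_left (Subgroup.mem_sup_left (Subgroup.mem_sup_left
      (Subgroup.mem_sup_left (xr_mem_root F 9 t))))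
  · exact Subgroup.mem_sup_left (Subgroup.mem_sup_left (Subgroup.mem_sup_left
      (Subgroup.mem_sup_right (xr_mem_root F 10 t))))
  · exact Subgroup.mem_sup_left (Subgroup.mem_sup_left (Subgroup.mem_sup_right (xr_mem_root F 11 t)))
  · exact Subgroup.mem_sup_left (Subgroup.mem_sup_right (xr_mem_root F 6 t))
  · exact Subgroup.mem_sup_right (xr_mem_root F 5 t)

theorem nineSub_le {H : Subgroup (GL chevG2.Idx F)}
    (h : ∀ r ∈ [9, 10, 11, 6, 5], ∀ t : F, xr F r t ∈ H) : nineSub F ≤ H := by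
  unfold nineSub
  refine sup_le (sup_le (sup_le (sup_le ?_ ?_) ?_) ?_) ?_ <;>
  · intro g hg
    obtain ⟨t, rfl⟩ := (sysG2.mem_rootSubgroup F).mp hg
    exact h _ (by simp) t

theorem nineSub_le_centralizer :
    nineSub F ≤ chevG2.group F ⊓ Subgroup.centralizer {xr F 9 1} := by
  refine nineSub_le F fun r hr t => ⟨?_, ?_⟩
  · simp only [List.mem_cons, List.not_mem_nil, or_false] at hr
    rcases hr with rfl | rfl | rfl | rfl | rfl <;> exact sysG2.xG_mem F (by decide +kernel) t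
  · refine Subgroup.mem_centralizer_singleton_iff.mpr ?_
    simp only [List.mem_cons, List.not_mem_nil, or_false] at hr
    rcases hr with rfl | rfl | rfl | rfl | rfl
    · rw [xr_merge, xr_merge, add_comm]
    · exact c109 F 1 t
    · exact c119 F 1 t
    · exact (c96 F t 1).symm
    · exact (c_triv F (r := 5) (s := 9) (by decide +kernel) (by decide +kernel) (by decide)
        (by decide +kernel) (by decide +kernel) t 1).symm

/-- The centraliser of `x₉(1)`. -/
theorem centralizer_nine :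
    chevG2.group F ⊓ Subgroup.centralizer {xr F 9 1} = nineSub F := by
  classical
  refine le_antisymm ?_ (nineSub_le_centralizer F)
  have hS := supportEq_of_chk checkedG2 chkSupp_G2
  rintro g ⟨hg, hgc⟩
  replace hgc := Subgroup.mem_centralizer_singleton_iff.mp hgc
  have hgc' : g * xr F 9 1 * g⁻¹ = xr F 9 1 := by rw [hgc, mul_inv_cancel_right]
  obtain ⟨a, ha, n, hn, c, hc, rfl⟩ := sysG2.exists_bruhat F hg
  obtain ⟨k, e, f, hk0, hk⟩ := borel_conj_nine F hc (one_ne_zero (α := F))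
  obtain ⟨l, η, φ, hl0, hl⟩ := borel_conj_nine F (inv_mem ha) (one_ne_zero (α := F))
  have hfix := perm_nine_of_conj F ⟨n, hn⟩ hk0 hl0 (by
    show n * _ * n⁻¹ = _
    rw [← hk, ← hl]
    conv_rhs => rw [← hgc']
    group)
  have hBP : chevG2.borelSubgroup F ≤ chevG2.parabolicSubgroup F {1} := le_sup_left
  have hP : a * n * c ∈ chevG2.parabolicSubgroup F {1} :=
    mul_mem (mul_mem (hBP ha)
      (sysG2.levi_le_parabolic F hS {1} (mem_levi_of_fix F ⟨n, hn⟩ hfix))) (hBP hc)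
  rw [← sysG2.radical_sup_levi F hS {1}, unipotentRadical_eq, ← SetLike.mem_coe,
    Subgroup.coe_mul_of_right_le_normalizer_left _ _ (sysG2.levi_le_normalizer F hS {1})] at hP
  obtain ⟨r, hr, m, hm, hrm⟩ := hP
  change r * m = a * n * c at hrm
  rw [← hrm] at hgc' ⊢
  obtain ⟨a', b', c', d', e', f', rfl, ha0⟩ :=
    exists_uE_of_uSub F (sysG2.closed_outSet hS {1}) hr
  have ha' : a' = 0 := ha0 fun h6 => h6 ⟨by decide +kernel, fun i hi hne => by
    replace hi : i < 2 := hi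
    interval_cases i
    · decide +kernel
    · simp at hne⟩
  subst ha'
  obtain ⟨κ, hκ⟩ := levi_conj_nine F hm
  rw [show uE F 0 b' c' d' e' f' * m * xr F 9 1 * (uE F 0 b' c' d' e' f' * m)⁻¹ =
      uE F 0 b' c' d' e' f' * (m * xr F 9 1 * m⁻¹) * (uE F 0 b' c' d' e' f')⁻¹ by group, hκ,
    mul_one, x9_eq, x9_eq, uE_conj_nine] at hgc'
  obtain ⟨-, -, -, hκ1, hb, hcc⟩ := uE_inj F hgc'
  rw [hκ1, mul_one] at hb
  subst hb
  simp only [hκ1, mul_one, mul_zero, zero_add, add_zero] at hcc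
  subst hcc
  have hr' : uE F 0 0 0 d' e' f' ∈ nineSub F := by
    rw [show uE F 0 0 0 d' e' f' = xr F 9 d' * xr F 10 e' * xr F 11 f' by
      simp [uE, xr, sysG2.xG_zero, mul_assoc]]
    exact mul_mem (mul_mem (xr_mem_nineSub F (by simp) _) (xr_mem_nineSub F (by simp) _))
      (xr_mem_nineSub F (by simp) _)
  refine mul_mem hr' ?_
  set T : Subgroup (GL chevG2.Idx F) := Subgroup.closure {g : GL chevG2.Idx F | ∃ (r : ℕ) (t : F),
    chevG2.InRootSub {1} r ∧ (g : Matrix chevG2.Idx chevG2.Idx F) = chevG2.x F r t} with hT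
  have hTle : T ≤ nineSub F := by
    refine (Subgroup.closure_le _).mpr ?_
    rintro x ⟨r, t, hr, hx⟩
    rw [sysG2.eq_xG F hx]
    rcases inRootSub_cases hr with rfl | rfl <;> exact xr_mem_nineSub F (by simp) t
  have hHT : chevG2.diagonalSubgroup F ≤ Subgroup.normalizer (T : Set (GL chevG2.Idx F)) := by
    rw [sysG2.diagonal_eq]
    refine le_normalizer_of_conj_mem ?_
    rintro _ ⟨s, rfl⟩ x hx
    refine closure_conj_mem ?_ hx
    rintro y ⟨r, t, hr, hy⟩
    rw [sysG2.eq_xG F hy, sysG2.tor_conj F s hr.1]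
    exact Subgroup.subset_closure ⟨r, _, hr, sysG2.xG_val F _ _⟩
  rw [ChevalleyDatum.leviSubgroup, sup_comm,
    Subgroup.coe_mul_of_right_le_normalizer_left _ _ hHT] at hm
  obtain ⟨q, hq, h, hh, hqh⟩ := hm
  change q * h = m at hqh
  subst hqh
  refine mul_mem (hTle hq) ?_
  rw [sysG2.diagonal_eq] at hh
  obtain ⟨s, rfl⟩ := hh
  have hq9 := Subgroup.mem_centralizer_singleton_iff.mp (nineSub_le_centralizer F (hTle hq)).2
  have hs : tor chevG2 F s * xr F 9 1 * (tor chevG2 F s)⁻¹ = xr F 9 1 := by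
    have h1 := hκ 1
    rw [hκ1, one_mul] at h1
    calc tor chevG2 F s * xr F 9 1 * (tor chevG2 F s)⁻¹
        = q⁻¹ * (q * tor chevG2 F s * xr F 9 1 * (q * tor chevG2 F s)⁻¹) * q := by group
      _ = q⁻¹ * (xr F 9 1 * q) := by rw [h1, mul_assoc]
      _ = _ := by rw [← hq9, inv_mul_cancel_left]
  have hone := sysG2.torusVal_eq_one_of_commute F s (by decide +kernel) one_ne_zero hs
  have hs0 : s 0 = 1 := by
    refine Units.ext ?_
    rw [Units.val_one, ← hone, torusVal, show Finset.range chevG2.rank = {0, 1} by decide +kernel,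
      Finset.prod_insert (by simp), Finset.prod_singleton,
      show chevG2.cartan 0 9 = 1 by decide +kernel, show chevG2.cartan 1 9 = 0 by decide +kernel]
    simp
  have hts : tor chevG2 F s = tor chevG2 F (Pi.mulSingle 1 (s 1)) := by
    apply Units.ext
    rw [sysG2.tor_val, sysG2.tor_val]
    refine dg_congr fun j _ => ?_
    congr 1
    rw [torusVal, torusVal, show Finset.range chevG2.rank = {0, 1} by decide +kernel,
      Finset.prod_insert (by simp), Finset.prod_singleton, Finset.prod_insert (by simp),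
      Finset.prod_singleton, hs0, Pi.mulSingle_eq_same, Pi.mulSingle_eq_of_ne (show 0 ≠ 1 by decide)]
  have e1 : tor chevG2 F (Pi.mulSingle 1 (s 1)) =
      sysG2.nG F (chevG2.simple 1) (s 1 : F) * sysG2.nG F (chevG2.simple 1) (-1) := by
    apply Units.ext
    rw [sysG2.tor_single F (show 1 < chevG2.rank by decide +kernel), Units.val_mul, sysG2.nG_val,
      sysG2.nG_val, sysG2.hMat_eq]
  rw [hts, e1, show chevG2.simple 1 = 6 by decide +kernel]
  have hn6 : ∀ v : F, sysG2.nG F 6 v ∈ nineSub F := by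
    intro v
    rw [sysG2.nG_eq, show chevG2.neg 6 = 5 by decide +kernel]
    exact mul_mem (mul_mem (xr_mem_nineSub F (by simp) _) (xr_mem_nineSub F (by simp) _))
      (xr_mem_nineSub F (by simp) _)
  exact mul_mem (hn6 _) (hn6 _)

/-! ### Classification of the involutions -/

theorem reflect_conj {i r r' : ℕ} (hi : i < chevG2.rank) (hr : r < chevG2.nroots)
    (e : chevG2.reflectRoot i r = r') {t : F} (ht : t ≠ 0) :
    ∃ h ∈ chevG2.group F, ∃ u : F, u ≠ 0 ∧ h * xr F r t * h⁻¹ = xr F r' u := by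
  refine ⟨_, sysG2.nG_mem F (sysG2.wf.simple_lt i hi) 1, (sysG2.eta i r : F) * t, ?_, ?_⟩
  · refine mul_ne_zero (fun h0 => ?_) ht
    have := sysG2.eta_cast F hi hr
    rw [h0, mul_zero] at this
    exact zero_ne_one this
  · rw [xr, sysG2.nG_conj_xG F hi hr, e, mul_inv_cancel_right]

theorem scale_conj {r : ℕ} (hr : r = 9 ∨ r = 11) {t : F} (ht : t ≠ 0) :
    ∃ h ∈ chevG2.group F, h * xr F r t * h⁻¹ = xr F r 1 := by
  obtain ⟨j, hj, hr', hj1, hj0⟩ : ∃ j < chevG2.rank, r < chevG2.nroots ∧ chevG2.cartan j r = 1 ∧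
      ∀ k < chevG2.rank, k ≠ j → chevG2.cartan k r = 0 := by
    rcases hr with rfl | rfl
    · exact ⟨0, by decide +kernel, by decide +kernel, by decide +kernel, by decide +kernel⟩
    · exact ⟨1, by decide +kernel, by decide +kernel, by decide +kernel, by decide +kernel⟩
  refine ⟨tor chevG2 F (Pi.mulSingle j (Units.mk0 t ht)⁻¹),
    sysG2.diagonal_le_group F (by rw [sysG2.diagonal_eq]; exact ⟨_, rfl⟩), ?_⟩
  rw [xr, sysG2.tor_conj F _ hr']
  congr 1
  rw [torusVal, Finset.prod_eq_single_of_mem j (Finset.mem_range.mpr hj), hj1,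
    Pi.mulSingle_eq_same]
  · simp [ht]
  · intro k hk hkj
    rw [hj0 k (Finset.mem_range.mp hk) hkj, zpow_zero]

/-- Being conjugate to `x₉(1)` or to `x₁₁(1)`. -/
def IsStd (g : GL chevG2.Idx F) : Prop :=
  ∃ h ∈ chevG2.group F, h * g * h⁻¹ = xr F 9 1 ∨ h * g * h⁻¹ = xr F 11 1

theorem isStd_of_conj {g g' h : GL chevG2.Idx F} (hh : h ∈ chevG2.group F)
    (e : h * g * h⁻¹ = g') (hg : IsStd F g') : IsStd F g := by
  obtain ⟨k, hk, hk'⟩ := hg
  refine ⟨k * h, mul_mem hk hh, ?_⟩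
  rwa [show k * h * g * (k * h)⁻¹ = k * (h * g * h⁻¹) * k⁻¹ by group, e]

theorem isStd_nine {t : F} (ht : t ≠ 0) : IsStd F (xr F 9 t) := by
  obtain ⟨h, hh, e⟩ := scale_conj F (Or.inl rfl) ht
  exact ⟨h, hh, Or.inl e⟩

theorem isStd_eleven {t : F} (ht : t ≠ 0) : IsStd F (xr F 11 t) := by
  obtain ⟨h, hh, e⟩ := scale_conj F (Or.inr rfl) ht
  exact ⟨h, hh, Or.inr e⟩

theorem isStd_ten {t : F} (ht : t ≠ 0) : IsStd F (xr F 10 t) := by
  obtain ⟨h, hh, u, hu, e⟩ := reflect_conj F (i := 1) (r := 10) (r' := 11)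
    (by decide +kernel) (by decide +kernel) (by decide +kernel) ht
  exact isStd_of_conj F hh e (isStd_eleven F hu)

theorem isStd_six {t : F} (ht : t ≠ 0) : IsStd F (xr F 6 t) := by
  obtain ⟨h, hh, u, hu, e⟩ := reflect_conj F (i := 0) (r := 6) (r' := 10)
    (by decide +kernel) (by decide +kernel) (by decide +kernel) ht
  exact isStd_of_conj F hh e (isStd_ten F hu)

theorem isStd_eight {t : F} (ht : t ≠ 0) : IsStd F (xr F 8 t) := by
  obtain ⟨h, hh, u, hu, e⟩ := reflect_conj F (i := 0) (r := 8) (r' := 9)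
    (by decide +kernel) (by decide +kernel) (by decide +kernel) ht
  exact isStd_of_conj F hh e (isStd_nine F hu)

theorem isStd_seven {t : F} (ht : t ≠ 0) : IsStd F (xr F 7 t) := by
  obtain ⟨h, hh, u, hu, e⟩ := reflect_conj F (i := 1) (r := 7) (r' := 8)
    (by decide +kernel) (by decide +kernel) (by decide +kernel) ht
  exact isStd_of_conj F hh e (isStd_eight F hu)

theorem isStd_of_uE {p p' s : GL chevG2.Idx F} (hs : s ∈ chevG2.posUnipotent F)
    (e : s * p = p' * s) (hp : IsStd F p') : IsStd F p :=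
  isStd_of_conj F (sysG2.posUnipotent_le_group F hs) (mul_inv_eq_iff_eq_mul.mpr e) hp

variable [Finite F]

theorem exists_sqrt (x : F) : ∃ y : F, y * y = x := by
  haveI := Fintype.ofFinite F
  obtain ⟨y, hy⟩ := FiniteField.isSquare_of_char_two (F := F) (ringChar.eq F 2) x
  exact ⟨y, hy.symm⟩

theorem isStd_b_ne {b c e f : F} (hb : b ≠ 0) : IsStd F (uE F 0 b c (b * c) e f) := by
  obtain ⟨γ, hγ⟩ := exists_sqrt F ((f + b * c ^ 2 + c * e / b) / b)
  have h2 := two_eq F
  have hγ' : b * γ ^ 2 * b = f * b + b ^ 2 * c ^ 2 + c * e := by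
    rw [pow_two, hγ]; field_simp
  refine isStd_of_uE F (uE_mem_pos F (c / b) 0 γ ((c * b ^ 2 + e + b ^ 2 * γ) / b) 0 0) ?_
    (p' := uE F 0 b 0 0 0 0) (by rw [← x7_eq]; exact isStd_seven F hb)
  rw [uE_mul, uE_mul]
  congr 1 <;> first | grind | (field_simp; grind)

theorem isStd_a_ne {a c d e f : F} (ha : a ≠ 0) (h : a * e + c * d = 0) :
    IsStd F (uE F a 0 c d e f) := by
  have h2 := two_eq F
  refine isStd_of_uE F (uE_mem_pos F 0 (c / a) 0 0 0 0) ?_
    (p' := uE F a 0 0 (d + c ^ 2 / a) 0 (f + c ^ 3 / a)) ?_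
  · rw [uE_mul, uE_mul]
    congr 1 <;> first | grind | (field_simp; grind)
  generalize d + c ^ 2 / a = d'
  generalize f + c ^ 3 / a = f'
  refine isStd_of_uE F (uE_mem_pos F 0 0 0 0 (f' / a) 0) ?_ (p' := uE F a 0 0 d' 0 0) ?_
  · rw [uE_mul, uE_mul]
    congr 1 <;> first | grind | (field_simp; grind)
  by_cases hd0 : d' = 0
  · rw [hd0, ← x6_eq]; exact isStd_six F ha
  have hconj : ∀ (i r r' : ℕ), i < chevG2.rank → r < chevG2.nroots → chevG2.reflectRoot i r = r' →
      ∀ v : F, sysG2.nG F (chevG2.simple i) 1 * xr F r v * (sysG2.nG F (chevG2.simple i) 1)⁻¹ =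
        xr F r' ((sysG2.eta i r : F) * v) := by
    intro i r r' hi hr e' v
    rw [xr, sysG2.nG_conj_xG F hi hr, e', mul_inv_cancel_right]
  set n0 := sysG2.nG F (chevG2.simple 0) 1
  set n1 := sysG2.nG F (chevG2.simple 1) 1
  have hh : n1 * n0 ∈ chevG2.group F := mul_mem
    (sysG2.nG_mem F (sysG2.wf.simple_lt 1 (by decide +kernel)) 1)
    (sysG2.nG_mem F (sysG2.wf.simple_lt 0 (by decide +kernel)) 1)
  refine isStd_of_conj F hh (g' := uE F 0
    ((sysG2.eta 1 8 : F) * ((sysG2.eta 0 9 : F) * d')) 0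
    ((sysG2.eta 1 8 : F) * ((sysG2.eta 0 9 : F) * d') * 0) 0
    ((sysG2.eta 1 10 : F) * ((sysG2.eta 0 6 : F) * a))) ?_ (isStd_b_ne F ?_)
  · rw [show uE F a 0 0 d' 0 0 = xr F 6 a * xr F 9 d' by simp [uE, xr, sysG2.xG_zero]]
    rw [show n1 * n0 * (xr F 6 a * xr F 9 d') * (n1 * n0)⁻¹ =
      (n1 * (n0 * xr F 6 a * n0⁻¹) * n1⁻¹) * (n1 * (n0 * xr F 9 d' * n0⁻¹) * n1⁻¹) by group,
      hconj 0 6 10 (by decide +kernel) (by decide +kernel) (by decide +kernel),
      hconj 0 9 8 (by decide +kernel) (by decide +kernel) (by decide +kernel),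
      hconj 1 10 11 (by decide +kernel) (by decide +kernel) (by decide +kernel),
      hconj 1 8 7 (by decide +kernel) (by decide +kernel) (by decide +kernel), x11_eq, x7_eq,
      uE_mul]
    congr 1 <;> ring
  · refine mul_ne_zero (fun h0 => ?_) (mul_ne_zero (fun h0 => ?_) hd0)
    · have := sysG2.eta_cast F (show 1 < chevG2.rank by decide +kernel)
        (show 8 < chevG2.nroots by decide +kernel)
      rw [h0, mul_zero] at this
      exact zero_ne_one this
    · have := sysG2.eta_cast F (show 0 < chevG2.rank by decide +kernel)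
        (show 9 < chevG2.nroots by decide +kernel)
      rw [h0, mul_zero] at this
      exact zero_ne_one this

theorem isStd_of_sq {a b c d e f : F} (hne : uE F a b c d e f ≠ 1)
    (hsq : uE F a b c d e f * uE F a b c d e f = 1) : IsStd F (uE F a b c d e f) := by
  have h2 := two_eq F
  rw [uE_mul, ← uE_zero F] at hsq
  obtain ⟨-, -, h8, h9, h10, h11⟩ := uE_inj F hsq
  have hab : a * b = 0 := by linear_combination h8 - c * h2
  by_cases hb : b = 0
  swap
  · obtain rfl : a = 0 := (mul_eq_zero.mp hab).resolve_right hb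
    obtain rfl : d = b * c := by
      have h : b * (d - b * c) = 0 := by linear_combination h10 - (e + b ^ 2 * c) * h2
      exact sub_eq_zero.mp ((mul_eq_zero.mp h).resolve_left hb)
    exact isStd_b_ne F hb
  subst hb
  by_cases ha : a = 0
  swap
  · exact isStd_a_ne F ha (by linear_combination h11 - f * h2)
  subst ha
  have hcd : c * d = 0 := by linear_combination h11 - f * h2
  by_cases hc : c = 0
  swap
  · obtain rfl : d = 0 := (mul_eq_zero.mp hcd).resolve_left hc
    obtain ⟨β, hβ⟩ := exists_sqrt F (e / c)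
    have hβ' : β * β * c = e := by rw [hβ]; field_simp
    refine isStd_of_uE F (uE_mem_pos F 0 β 0 ((f + β * c ^ 2) / c) 0 0) ?_
      (p' := uE F 0 0 c 0 0 0) (by rw [← x8_eq]; exact isStd_eight F hc)
    rw [uE_mul, uE_mul]
    congr 1 <;> first | grind | (field_simp; grind)
  subst hc
  by_cases hd : d = 0
  swap
  · refine isStd_of_uE F (uE_mem_pos F 0 (e / d) (f / d) 0 0 0) ?_
      (p' := uE F 0 0 0 d 0 0) (by rw [← x9_eq]; exact isStd_nine F hd)
    rw [uE_mul, uE_mul]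
    congr 1 <;> first | grind | (field_simp; grind)
  subst hd
  by_cases he : e = 0
  swap
  · refine isStd_of_uE F (uE_mem_pos F (f / e) 0 0 0 0 0) ?_
      (p' := uE F 0 0 0 0 e 0) (by rw [← x10_eq]; exact isStd_ten F he)
    rw [uE_mul, uE_mul]
    congr 1 <;> first | grind | (field_simp; grind)
  subst he
  rw [← x11_eq]
  refine isStd_eleven F fun hf => hne ?_
  rw [hf, uE_zero]

/-- Every involution of the group is conjugate to `x₉(1)` or to `x₁₁(1)`. -/
theorem isStd_of_orderOf_two {g : GL chevG2.Idx F} (hg : g ∈ chevG2.group F)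
    (h2 : orderOf g = 2) : IsStd F g := by
  classical
  haveI := Fintype.ofFinite F
  haveI : Fact (Nat.Prime 2) := ⟨Nat.prime_two⟩
  obtain ⟨n, -, hn⟩ := FiniteField.card F 2
  have hU : Nat.card ↥(chevG2.posUnipotent F) = Fintype.card F ^ 6 := by
    rw [← uSub_univ, sysG2.natCard_uSub F sysG2.closed_univ]
    congr 1
  set G := chevG2.group F
  set U : Subgroup ↥G := (chevG2.posUnipotent F).subgroupOf G with hUdef
  have hcardU : Nat.card ↥U = Fintype.card F ^ 6 := by
    rw [Nat.card_congr (Subgroup.subgroupOfEquivOfLe (sysG2.posUnipotent_le_group F)).toEquiv, hU]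
  have hG : Nat.card ↥G = Fintype.card F ^ 6 * (Fintype.card F ^ 2 - 1) * (Fintype.card F ^ 6 - 1) :=
    Cfsg.Agent.S1059.result rfl
  have hodd : ¬ 2 ∣ U.index := by
    have h1 := U.card_mul_index
    rw [hcardU, hG, mul_assoc] at h1
    rw [Nat.eq_of_mul_eq_mul_left (pow_pos Fintype.card_pos 6) h1, Nat.Prime.dvd_mul Nat.prime_two]
    have hev : 2 ∣ Fintype.card F := hn ▸ dvd_pow_self 2 (PNat.ne_zero n)
    have h3 : ∀ k, k ≠ 0 → ¬ 2 ∣ Fintype.card F ^ k - 1 := by
      intro k hk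
      have h4 : 2 ∣ Fintype.card F ^ k := dvd_pow hev hk
      have h5 : 1 ≤ Fintype.card F ^ k := Nat.one_le_pow _ _ Fintype.card_pos
      omega
    exact fun h => h.elim (h3 2 (by norm_num)) (h3 6 (by norm_num))
  set gg : ↥G := ⟨g, hg⟩
  have hgg : orderOf gg = 2 := by rw [← Subgroup.orderOf_coe]; exact h2
  have hP : IsPGroup 2 ↥(Subgroup.zpowers gg) :=
    IsPGroup.of_card (n := 1) (by rw [Nat.card_zpowers, hgg, pow_one])
  obtain ⟨x, hx⟩ := hP.nonempty_fixed_point_of_prime_not_dvd_card (↥G ⧸ U) hodd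
  obtain ⟨k, rfl⟩ := QuotientGroup.mk_surjective x
  have h6 : (↑(gg * k) : ↥G ⧸ U) = ↑k := hx ⟨gg, Subgroup.mem_zpowers gg⟩
  rw [QuotientGroup.eq, Subgroup.mem_subgroupOf] at h6
  have hU' : (k : GL chevG2.Idx F)⁻¹ * g * (k : GL chevG2.Idx F) ∈ chevG2.posUnipotent F := by
    have h7 := inv_mem h6
    simpa [gg, mul_assoc] using h7
  obtain ⟨a, b, c, d, e, f, he⟩ := exists_uE F hU'
  refine isStd_of_conj F (inv_mem k.2) (g' := uE F a b c d e f) (by rw [← he, inv_inv]) ?_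
  have hsq : g * g = 1 := by rw [← pow_two, ← h2]; exact pow_orderOf_eq_one g
  refine isStd_of_sq F (fun h => ?_) ?_
  · rw [← he] at h
    have : g = 1 := by
      have h8 := congrArg (fun y => (k : GL chevG2.Idx F) * y * (k : GL chevG2.Idx F)⁻¹) h
      simpa [mul_assoc] using h8
    rw [this, orderOf_one] at h2
    norm_num at h2
  · rw [← he, show (k : GL chevG2.Idx F)⁻¹ * g * k * ((k : GL chevG2.Idx F)⁻¹ * g * k) =
      (k : GL chevG2.Idx F)⁻¹ * (g * g) * k by group, hsq]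
    group

end CfsgLib.Chevalley.G2E
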