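import Cfsg.Agent.Chevalley.Data.SysG2
import Cfsg.Agent.Chevalley.Bruhat
import Cfsg.Agent.Chevalley.Unipotent

/-!
Type `G₂` in characteristic two: the multiplication of the positive unipotent subgroup in the
coordinates `6 = b, 7 = a, 8 = a + b, 9 = 2a + b, 10 = 3a + b, 11 = 3a + 2b`.
-/

set_option autoImplicit false

namespace CfsgLib.Chevalley.G2E

open Cfsg.Lie

variable (F : Type*) [Field F]

/-- The root element of `G₂` as a unit. -/
noncomputable abbrev xr (r : ℕ) (t : F) : GL chevG2.Idx F := sysG2.xG F r t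

/-- The element of `U` with the six coordinates `a, …, f`. -/
noncomputable def uE (a b c d e f : F) : GL chevG2.Idx F :=
  xr F 6 a * (xr F 7 b * (xr F 8 c * (xr F 9 d * (xr F 10 e * xr F 11 f))))

variable [CharP F 2]

omit [CharP F 2] in
theorem swap_eq {r s : ℕ} (hr : r < chevG2.nroots) (hs : s < chevG2.nroots) (h1 : s ≠ r)
    (h2 : s ≠ chevG2.neg r) (t u : F) :
    xr F s u * xr F r t = xr F r t * (xr F s u * sysG2.wG F (chevG2.commWord F r s t u)) := by
  rw [← sysG2.xG_comm F hr hs h1 h2 t u, mul_assoc, mul_inv_cancel_left]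

theorem two_zero : (2 : F) = 0 := CharTwo.two_eq_zero

theorem three_one : (3 : F) = 1 := by linear_combination two_zero F

theorem c76 (t u : F) : xr F 7 u * xr F 6 t =
    xr F 6 t * (xr F 7 u * (xr F 8 (t * u) * (xr F 9 (t * u ^ 2) * xr F 10 (t * u ^ 3)))) := by
  rw [swap_eq F (r := 6) (s := 7) (by decide +kernel) (by decide +kernel) (by decide) (by decide +kernel)]
  simp [ChevalleyDatum.commWord, show chevG2.commTerms 6 7 =
    [(8, 1, 1, 1), (9, 1, 1, 2), (10, -1, 1, 3), (11, -2, 2, 3)] by decide +kernel, Sys.wG,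
    CharTwo.neg_eq, two_zero F, sysG2.xG_zero, xr]

theorem c106 (t u : F) : xr F 10 u * xr F 6 t = xr F 6 t * (xr F 10 u * xr F 11 (t * u)) := by
  rw [swap_eq F (r := 6) (s := 10) (by decide +kernel) (by decide +kernel) (by decide) (by decide +kernel)]
  simp [ChevalleyDatum.commWord, show chevG2.commTerms 6 10 = [(11, 1, 1, 1)] by decide +kernel,
    Sys.wG, CharTwo.neg_eq, xr]

theorem c87 (t u : F) : xr F 8 u * xr F 7 t =
    xr F 7 t * (xr F 8 u * (xr F 10 (t ^ 2 * u) * xr F 11 (t * u ^ 2))) := by
  rw [swap_eq F (r := 7) (s := 8) (by decide +kernel) (by decide +kernel) (by decide) (by decide +kernel)]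
  simp [ChevalleyDatum.commWord, show chevG2.commTerms 7 8 =
    [(9, -2, 1, 1), (10, -3, 2, 1), (11, 3, 1, 2)] by decide +kernel, Sys.wG,
    CharTwo.neg_eq, two_zero F, three_one F, sysG2.xG_zero, xr]

theorem c97 (t u : F) : xr F 9 u * xr F 7 t = xr F 7 t * (xr F 9 u * xr F 10 (t * u)) := by
  rw [swap_eq F (r := 7) (s := 9) (by decide +kernel) (by decide +kernel) (by decide) (by decide +kernel)]
  simp [ChevalleyDatum.commWord, show chevG2.commTerms 7 9 = [(10, 3, 1, 1)] by decide +kernel,
    Sys.wG, CharTwo.neg_eq, three_one F, xr]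

theorem c98 (t u : F) : xr F 9 u * xr F 8 t = xr F 8 t * (xr F 9 u * xr F 11 (t * u)) := by
  rw [swap_eq F (r := 8) (s := 9) (by decide +kernel) (by decide +kernel) (by decide) (by decide +kernel)]
  simp [ChevalleyDatum.commWord, show chevG2.commTerms 8 9 = [(11, 3, 1, 1)] by decide +kernel,
    Sys.wG, CharTwo.neg_eq, three_one F, xr]

theorem c_triv {r s : ℕ} (hr : r < chevG2.nroots) (hs : s < chevG2.nroots) (h1 : s ≠ r)
    (h2 : s ≠ chevG2.neg r) (h : chevG2.commTerms r s = []) (t u : F) :
    xr F s u * xr F r t = xr F r t * xr F s u := by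
  rw [swap_eq F hr hs h1 h2]
  simp [ChevalleyDatum.commWord, h, Sys.wG, xr]

theorem c86 (t u : F) : xr F 8 u * xr F 6 t = xr F 6 t * xr F 8 u :=
  c_triv F (by decide +kernel) (by decide +kernel) (by decide) (by decide +kernel) (by decide +kernel) t u
theorem c96 (t u : F) : xr F 9 u * xr F 6 t = xr F 6 t * xr F 9 u :=
  c_triv F (by decide +kernel) (by decide +kernel) (by decide) (by decide +kernel) (by decide +kernel) t u
theorem c116 (t u : F) : xr F 11 u * xr F 6 t = xr F 6 t * xr F 11 u :=
  c_triv F (by decide +kernel) (by decide +kernel) (by decide) (by decide +kernel) (by decide +kernel) t u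
theorem c107 (t u : F) : xr F 10 u * xr F 7 t = xr F 7 t * xr F 10 u :=
  c_triv F (by decide +kernel) (by decide +kernel) (by decide) (by decide +kernel) (by decide +kernel) t u
theorem c117 (t u : F) : xr F 11 u * xr F 7 t = xr F 7 t * xr F 11 u :=
  c_triv F (by decide +kernel) (by decide +kernel) (by decide) (by decide +kernel) (by decide +kernel) t u
theorem c108 (t u : F) : xr F 10 u * xr F 8 t = xr F 8 t * xr F 10 u :=
  c_triv F (by decide +kernel) (by decide +kernel) (by decide) (by decide +kernel) (by decide +kernel) t u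
theorem c118 (t u : F) : xr F 11 u * xr F 8 t = xr F 8 t * xr F 11 u :=
  c_triv F (by decide +kernel) (by decide +kernel) (by decide) (by decide +kernel) (by decide +kernel) t u
theorem c109 (t u : F) : xr F 10 u * xr F 9 t = xr F 9 t * xr F 10 u :=
  c_triv F (by decide +kernel) (by decide +kernel) (by decide) (by decide +kernel) (by decide +kernel) t u
theorem c119 (t u : F) : xr F 11 u * xr F 9 t = xr F 9 t * xr F 11 u :=
  c_triv F (by decide +kernel) (by decide +kernel) (by decide) (by decide +kernel) (by decide +kernel) t u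
theorem c1110 (t u : F) : xr F 11 u * xr F 10 t = xr F 10 t * xr F 11 u :=
  c_triv F (by decide +kernel) (by decide +kernel) (by decide) (by decide +kernel) (by decide +kernel) t u

omit [CharP F 2] in
theorem lift_eq {G : Type*} [Monoid G] {x y z : G} (h : x * y = z) (g : G) :
    x * (y * g) = z * g := by rw [← mul_assoc, h]

omit [CharP F 2] in
theorem xr_merge (r : ℕ) (t u : F) : xr F r t * xr F r u = xr F r (t + u) := sysG2.xG_add F r t u

/-- The multiplication of `U` in coordinates. -/
theorem uE_mul (a b c d e f A B C D E G : F) :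
    uE F a b c d e f * uE F A B C D E G =
      uE F (a + A) (b + B) (c + A * b + C) (d + A * b ^ 2 + D)
        (e + A * b ^ 3 + B * (d + A * b ^ 2) + B ^ 2 * (c + A * b) + E)
        (f + A * e + A * b ^ 2 * c + B * c ^ 2 + A ^ 2 * b ^ 2 * B + C * d + A * b ^ 2 * C + G) := by
  simp only [uE, mul_assoc, xr_merge, lift_eq (xr_merge F _ _ _),
    lift_eq (c76 F _ _), lift_eq (c106 F _ _), lift_eq (c87 F _ _),
    lift_eq (c97 F _ _), lift_eq (c98 F _ _), lift_eq (c86 F _ _),
    lift_eq (c96 F _ _), lift_eq (c116 F _ _), lift_eq (c107 F _ _),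
    lift_eq (c117 F _ _), lift_eq (c108 F _ _), lift_eq (c118 F _ _),
    lift_eq (c109 F _ _), lift_eq (c119 F _ _), lift_eq (c1110 F _ _)]
  ring_nf

end CfsgLib.Chevalley.G2E
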