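import Cfsg.Agent.Chevalley.WCRows

/-! The check for weakly closed subgroups in type E8, rows from 180 on. -/

set_option autoImplicit false
set_option Elab.async false

namespace CfsgLib.Chevalley

open Cfsg.Lie

theorem chkWCRows_E8_6 : chkWCRows Cfsg.Lie.chevE8 1 180 10 = true := by decide +kernel
theorem chkWCRows_E8_7 : chkWCRows Cfsg.Lie.chevE8 1 190 10 = true := by decide +kernel
theorem chkWCRows_E8_8 : chkWCRows Cfsg.Lie.chevE8 1 200 10 = true := by decide +kernel
theorem chkWCRows_E8_9 : chkWCRows Cfsg.Lie.chevE8 1 210 10 = true := by decide +kernel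
theorem chkWCRows_E8_10 : chkWCRows Cfsg.Lie.chevE8 1 220 10 = true := by decide +kernel
theorem chkWCRows_E8_11 : chkWCRows Cfsg.Lie.chevE8 1 230 10 = true := by decide +kernel

end CfsgLib.Chevalley
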