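import Cfsg.Agent.Chevalley.WCDataE8A
import Cfsg.Agent.Chevalley.WCDataE8B

/-! The checks for weakly closed subgroups. -/

set_option autoImplicit false
set_option Elab.async false

namespace CfsgLib.Chevalley

open Cfsg.Lie

theorem chkWC_G2 : chkWC Cfsg.Lie.chevG2 2 = true := by decide +kernel
theorem chkWC_B2 : chkWC Cfsg.Lie.chevB2 2 = true := by decide +kernel
theorem chkWC_D4 : chkWC Cfsg.Lie.chevD4 2 = true := by decide +kernel
theorem chkWC_F4 : chkWC Cfsg.Lie.chevF4 2 = true := by decide +kernel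
theorem chkWC_E6 : chkWC Cfsg.Lie.chevE6 1 = true := by decide +kernel
theorem chkWC_E7 : chkWC Cfsg.Lie.chevE7 1 = true := by decide +kernel
theorem chkWC_E8 : chkWC Cfsg.Lie.chevE8 1 = true :=
  chkWC_of_rows (a := 120) (n := 120) (by decide +kernel) (by decide +kernel)
    (chkWCRows_add (m := 10) (n := 110) chkWCRows_E8_0
      (chkWCRows_add (m := 10) (n := 100) chkWCRows_E8_1
      (chkWCRows_add (m := 10) (n := 90) chkWCRows_E8_2
      (chkWCRows_add (m := 10) (n := 80) chkWCRows_E8_3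
      (chkWCRows_add (m := 10) (n := 70) chkWCRows_E8_4
      (chkWCRows_add (m := 10) (n := 60) chkWCRows_E8_5
      (chkWCRows_add (m := 10) (n := 50) chkWCRows_E8_6
      (chkWCRows_add (m := 10) (n := 40) chkWCRows_E8_7
      (chkWCRows_add (m := 10) (n := 30) chkWCRows_E8_8
      (chkWCRows_add (m := 10) (n := 20) chkWCRows_E8_9
      (chkWCRows_add (m := 10) (n := 10) chkWCRows_E8_10
      chkWCRows_E8_11)))))))))))

/-- Every tabulated datum admits the classification, with a bound on the field. -/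
theorem exists_sys_wc {D : ChevalleyDatum}
    (hD : D ∈ [Cfsg.Lie.chevG2, Cfsg.Lie.chevB2, Cfsg.Lie.chevD4, Cfsg.Lie.chevF4, Cfsg.Lie.chevE6,
      Cfsg.Lie.chevE7, Cfsg.Lie.chevE8]) :
    ∃ S : Sys D, S.SupportEq ∧ ∃ B, Sys.WCFacts D B ∧ (B = 1 ∨
      B = 2 ∧ D ∈ [Cfsg.Lie.chevG2, Cfsg.Lie.chevB2, Cfsg.Lie.chevD4, Cfsg.Lie.chevF4]) := by
  simp only [List.mem_cons, List.not_mem_nil, or_false] at hD
  rcases hD with rfl | rfl | rfl | rfl | rfl | rfl | rfl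
  · exact ⟨sysG2, supportEq_of_chk checkedG2 chkSupp_G2, 2, Sys.wcFacts_of_chk chkWC_G2, Or.inr ⟨rfl, by simp⟩⟩
  · exact ⟨sysB2, supportEq_of_chk checkedB2 chkSupp_B2, 2, Sys.wcFacts_of_chk chkWC_B2, Or.inr ⟨rfl, by simp⟩⟩
  · exact ⟨sysD4, supportEq_of_chk checkedD4 chkSupp_D4, 2, Sys.wcFacts_of_chk chkWC_D4, Or.inr ⟨rfl, by simp⟩⟩
  · exact ⟨sysF4, supportEq_of_chk checkedF4 chkSupp_F4, 2, Sys.wcFacts_of_chk chkWC_F4, Or.inr ⟨rfl, by simp⟩⟩
  · exact ⟨sysE6, supportEq_of_chk checkedE6 chkSupp_E6, 1, Sys.wcFacts_of_chk chkWC_E6, Or.inl rfl⟩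
  · exact ⟨sysE7, supportEq_of_chk checkedE7 chkSupp_E7, 1, Sys.wcFacts_of_chk chkWC_E7, Or.inl rfl⟩
  · exact ⟨sysE8, supportEq_of_chk checkedE8 chkSupp_E8, 1, Sys.wcFacts_of_chk chkWC_E8, Or.inl rfl⟩

end CfsgLib.Chevalley
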