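import Cfsg.Agent.Chevalley.WCRows

/-! The check for weakly closed subgroups in type E8, rows from 120 on. -/

set_option autoImplicit false
set_option Elab.async false

namespace CfsgLib.Chevalley

open Cfsg.Lie

theorem chkWCRows_E8_0 : chkWCRows Cfsg.Lie.chevE8 1 120 10 = true := by decide +kernel
theorem chkWCRows_E8_1 : chkWCRows Cfsg.Lie.chevE8 1 130 10 = true := by decide +kernel
theorem chkWCRows_E8_2 : chkWCRows Cfsg.Lie.chevE8 1 140 10 = true := by decide +kernel
theorem chkWCRows_E8_3 : chkWCRows Cfsg.Lie.chevE8 1 150 10 = true := by decide +kernel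
theorem chkWCRows_E8_4 : chkWCRows Cfsg.Lie.chevE8 1 160 10 = true := by decide +kernel
theorem chkWCRows_E8_5 : chkWCRows Cfsg.Lie.chevE8 1 170 10 = true := by decide +kernel

end CfsgLib.Chevalley
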