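import Cfsg.Agent.Chevalley.WeaklyClosed

/-! Blocks of rows of the check for weakly closed subgroups. -/

set_option autoImplicit false
set_option Elab.async false

namespace CfsgLib.Chevalley

open Cfsg.Lie

/-- A block of rows of the check `chkWC`. -/
def chkWCRows (D : ChevalleyDatum) (B a n : ℕ) : Bool :=
  (List.range' a n).all fun m =>
    ((List.range D.rank).any fun l =>
      decide ((D.cartan l m).natAbs = 1) || decide ((D.cartan l m).natAbs = 2)) &&
    ((List.range' (m + 1) (D.nroots - (m + 1))).all fun k => chkPair D B m k) &&
    ((List.range' (D.nroots / 2) (D.nroots - D.nroots / 2)).all fun s =>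
      (D.commTerms m s).all fun c => decide (m < c.1) && decide (s < c.1)) &&
    (((List.range D.rank).any fun i => decide (m = D.simple i)) ||
      (List.range D.rank).any fun i =>
        (List.range' (D.nroots / 2) (D.nroots - D.nroots / 2)).any fun s =>
          decide (s ≠ D.simple i) &&
            (goodComm D (D.simple i) s m || goodComm D s (D.simple i) m))

theorem chkWCRows_add {D : ChevalleyDatum} {B a m n : ℕ} (h₁ : chkWCRows D B a m = true)
    (h₂ : chkWCRows D B (a + m) n = true) : chkWCRows D B a (m + n) = true := by
  rw [chkWCRows, ← List.range'_append_1, List.all_append, Bool.and_eq_true]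
  exact ⟨h₁, h₂⟩

theorem chkWC_of_rows {D : ChevalleyDatum} {B a n : ℕ} (ha : D.nroots / 2 = a)
    (hn : D.nroots - D.nroots / 2 = n) (h : chkWCRows D B a n = true) : chkWC D B = true := by
  subst ha hn; exact h

end CfsgLib.Chevalley
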