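import Cfsg.Agent.Chevalley.Support

/-!
A subgroup of `U` weakly closed in `U` is the unipotent radical of a standard parabolic subgroup.
-/

set_option autoImplicit false

namespace CfsgLib.Chevalley

open Cfsg.Lie
open scoped Pointwise

variable {D : ChevalleyDatum}

/-- The combination `(x, y)` of the nodes `a, b` annihilating the root `k`, evaluated at `m`. -/
def sepVal (D : ChevalleyDatum) (a b k m : ℕ) : ℤ :=
  D.cartan b k / (Int.gcd (D.cartan a k) (D.cartan b k) : ℤ) * D.cartan a m +
    -(D.cartan a k / (Int.gcd (D.cartan a k) (D.cartan b k) : ℤ)) * D.cartan b m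

/-- The commutator of `x_a` and `x_b` is a product in increasing order containing `x_k` with a unit
coefficient. -/
def goodComm (D : ChevalleyDatum) (a b k : ℕ) : Bool :=
  decide (((D.commTerms a b).map fun c => c.1).Pairwise (· < ·)) &&
    (D.commTerms a b).any fun c => decide (c.1 = k) && (decide (c.2.1 = 1) || decide (c.2.1 = -1))

/-- Check: the pair `(m, k)` is separated by the torus, or `x_k` is forced by a commutator. -/
def chkPair (D : ChevalleyDatum) (B m k : ℕ) : Bool :=
  ((List.range D.rank).any fun a => (List.range D.rank).any fun b =>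
    decide (D.cartan b k / (Int.gcd (D.cartan a k) (D.cartan b k) : ℤ) * D.cartan a k +
      -(D.cartan a k / (Int.gcd (D.cartan a k) (D.cartan b k) : ℤ)) * D.cartan b k = 0) &&
    decide ((sepVal D a b k m).natAbs ≠ 0) && decide ((sepVal D a b k m).natAbs ≤ B)) ||
  (List.range D.rank).any fun i => decide (D.simple i ≠ m) &&
    goodComm D (D.simple i) m k &&
    (List.range' k (D.nroots - k)).all fun j =>
      decide (j ≠ D.simple i) && (D.commTerms (D.simple i) j).isEmpty

/-- Check: the data for the classification of weakly closed subgroups. -/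
def chkWC (D : ChevalleyDatum) (B : ℕ) : Bool :=
  (List.range' (D.nroots / 2) (D.nroots - D.nroots / 2)).all fun m =>
    ((List.range D.rank).any fun l =>
      decide ((D.cartan l m).natAbs = 1) || decide ((D.cartan l m).natAbs = 2)) &&
    ((List.range' (m + 1) (D.nroots - (m + 1))).all fun k => chkPair D B m k) &&
    ((List.range' (D.nroots / 2) (D.nroots - D.nroots / 2)).all fun s =>
      (D.commTerms m s).all fun c => decide (m < c.1) && decide (s < c.1)) &&
    (((List.range D.rank).any fun i => decide (m = D.simple i)) ||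
      (List.range D.rank).any fun i =>
        (List.range' (D.nroots / 2) (D.nroots - D.nroots / 2)).any fun s =>
          decide (s ≠ D.simple i) &&
            (goodComm D (D.simple i) s m || goodComm D s (D.simple i) m))

namespace Sys

variable (S : Sys D)

/-- The facts read off from `chkWC`. -/
structure WCFacts (D : ChevalleyDatum) (B : ℕ) : Prop where
  span : ∀ m < D.nroots, D.nroots / 2 ≤ m →
    ∃ l < D.rank, (D.cartan l m).natAbs = 1 ∨ (D.cartan l m).natAbs = 2
  pair : ∀ m k, D.nroots / 2 ≤ m → m < k → k < D.nroots →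
    (∃ a < D.rank, ∃ b < D.rank, ∃ x y : ℤ, x * D.cartan a k + y * D.cartan b k = 0 ∧
      x * D.cartan a m + y * D.cartan b m ≠ 0 ∧
        (x * D.cartan a m + y * D.cartan b m).natAbs ≤ B) ∨
    ∃ i < D.rank, D.simple i ≠ m ∧ goodComm D (D.simple i) m k = true ∧
      ∀ j, k ≤ j → j < D.nroots → j ≠ D.simple i ∧ D.commTerms (D.simple i) j = []
  up : ∀ m < D.nroots, D.nroots / 2 ≤ m → ∀ s < D.nroots, D.nroots / 2 ≤ s →
    ∀ c ∈ D.commTerms m s, m < c.1 ∧ s < c.1
  dec : ∀ r < D.nroots, D.nroots / 2 ≤ r → (∀ i < D.rank, r ≠ D.simple i) →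
    ∃ i < D.rank, ∃ s < D.nroots, D.nroots / 2 ≤ s ∧ s ≠ D.simple i ∧
      (goodComm D (D.simple i) s r = true ∨ goodComm D s (D.simple i) r = true)

theorem wcFacts_of_chk {B : ℕ} (h : chkWC D B = true) : WCFacts D B := by
  simp only [chkWC, List.all_eq_true, List.any_eq_true, Bool.and_eq_true, decide_eq_true_eq,
    Bool.or_eq_true, List.mem_range'_1, List.mem_range] at h
  refine ⟨fun m hm hp => ?_, fun m k hp hmk hk => ?_, fun m hm hp s hs hsp c hc => ?_,
    fun r hr hp hne => ?_⟩
  · obtain ⟨l, hl, e⟩ := (h m ⟨hp, by omega⟩).1.1.1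
    exact ⟨l, hl, e⟩
  · have h1 := (h m ⟨hp, by omega⟩).1.1.2 k ⟨by omega, by omega⟩
    simp only [chkPair, List.all_eq_true, List.any_eq_true, Bool.and_eq_true, decide_eq_true_eq,
      Bool.or_eq_true, List.mem_range'_1, List.mem_range, List.isEmpty_iff] at h1
    rcases h1 with ⟨a, ha, b, hb, ⟨e1, e2⟩, e3⟩ | ⟨i, hi, ⟨e1, e2⟩, e3⟩
    · exact Or.inl ⟨a, ha, b, hb, _, _, e1, fun e => e2 (by rw [sepVal, e]; rfl), e3⟩
    · exact Or.inr ⟨i, hi, e1, e2, fun j hj hjn => e3 j ⟨hj, by omega⟩⟩
  · exact (h m ⟨hp, by omega⟩).1.2 s ⟨hsp, by omega⟩ c hc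
  · rcases (h r ⟨hp, by omega⟩).2 with ⟨i, hi, e⟩ | ⟨i, hi, s, hs, e1, e2⟩
    · exact absurd e (hne i hi)
    · exact ⟨i, hi, s, by omega, hs.1, e1, e2⟩

theorem xG_commute' {F : Type*} [Field F] {r s : ℕ} (hr : r < D.nroots) (hs : s < D.nroots)
    (h1 : s ≠ r) (h2 : s ≠ D.neg r) (h : D.commTerms r s = []) (t u : F) :
    Commute (S.xG F r t) (S.xG F s u) := by
  have e := S.xG_comm F hr hs h1 h2 t u
  have e' : S.wG F (D.commWord F r s t u) = 1 :=
    Units.ext (by rw [S.wG_val, ChevalleyDatum.commWord, h]; rfl)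
  rw [e', mul_one, mul_assoc, inv_mul_eq_iff_eq_mul] at e
  exact e.symm

variable {B : ℕ} {F : Type*} [Field F] {X : Subgroup (GL D.Idx F)}

/-- The positive roots from `m` on. -/
def upSet (m : ℕ) : Set ℕ := {r ∈ (Set.univ : Set ℕ) | m ≤ r}

include S in
variable (F) in
theorem upSet_normal (hW : WCFacts D B) (m : ℕ) {g u : GL D.Idx F} (hg : g ∈ D.posUnipotent F)
    (hu : u ∈ uSub D F (upSet m)) : g * u * g⁻¹ ∈ uSub D F (upSet m) := by
  revert g
  suffices D.posUnipotent F ≤ Subgroup.normalizer (uSub D F (upSet m) : Set (GL D.Idx F)) from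
    fun {g} hg => (Subgroup.mem_normalizer_iff.mp (this hg) u).mp hu
  have key : ∀ q < D.nroots, D.nroots / 2 ≤ q → ∀ (t : F), ∀ x ∈ uSub D F (upSet m),
      S.xG F q t * x * (S.xG F q t)⁻¹ ∈ uSub D F (upSet m) := by
    intro q hq hqp t x hx
    refine closure_conj_mem ?_ hx
    rintro y ⟨s, v, ⟨⟨-, hms⟩, hsp⟩, hy⟩
    obtain ⟨hs1, hs2⟩ := (S.pos_iff s).mp hsp
    rw [S.eq_xG F hy]
    by_cases hsq : s = q
    · subst hsq
      rw [show S.xG F s t * S.xG F s v * (S.xG F s t)⁻¹ = S.xG F s v by
        rw [S.xG_add, S.xG_inv, S.xG_add]; congr 1; ring]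
      exact S.xG_mem_uSub F (P := upSet m) ⟨trivial, hms⟩ hs1 hs2 _
    have hneg : s ≠ D.neg q := fun e => by
      have := (S.neg_half q hq).mpr hqp
      omega
    rw [show S.xG F q t = (S.xG F q (-t))⁻¹ by rw [S.xG_inv, neg_neg], inv_inv,
      S.xG_comm F hq hs2 hsq hneg]
    refine mul_mem (S.xG_mem_uSub F (P := upSet m) ⟨trivial, hms⟩ hs1 hs2 v)
      (S.wG_commWord_mem F hq hs2 _ v fun c hc => ?_)
    have := hW.up q hq hqp s hs2 hs1 c hc
    exact ⟨⟨trivial, by omega⟩, by omega⟩
  rw [← uSub_univ]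
  refine S.uSub_le F fun q _ hqp hq t => ?_
  rw [Subgroup.mem_normalizer_iff]
  refine fun x => ⟨fun h => key q hq hqp t x h, fun h => ?_⟩
  have h' := key q hq hqp (-t) _ h
  rw [← S.xG_inv] at h'
  simpa [mul_assoc] using h'

theorem upSet_le_pos (m : ℕ) : uSub D F (upSet m) ≤ D.posUnipotent F :=
  uSub_le_posUnipotent F _

variable (X) in
/-- All root elements of `r` lie in `X`. -/
def Full (r : ℕ) : Prop := ∀ t : F, S.xG F r t ∈ X

/-- The hypotheses on `X`. -/
structure Inv (S : Sys D) (X : Subgroup (GL D.Idx F)) : Prop where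
  le : X ≤ D.posUnipotent F
  conj_u : ∀ u ∈ D.posUnipotent F, ∀ x ∈ X, u * x * u⁻¹ ∈ X
  conj_h : ∀ (c : ℕ → Fˣ), ∀ x ∈ X, tor D F c * x * (tor D F c)⁻¹ ∈ X

/-- The torus element with exponents `x` at `a` and `y` at `b`. -/
theorem exists_tor_val (a b : ℕ) (ha : a < D.rank) (hb : b < D.rank) (x y : ℤ) (z : Fˣ) :
    ∃ c : ℕ → Fˣ, ∀ r, torusVal D c r = z ^ (x * D.cartan a r + y * D.cartan b r) := by
  refine ⟨Pi.mulSingle a (z ^ x) * Pi.mulSingle b (z ^ y), fun r => ?_⟩
  simp only [torusVal, Pi.mul_apply, mul_zpow, Finset.prod_mul_distrib]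
  rw [zpow_add, Finset.prod_eq_single_of_mem a (Finset.mem_range.mpr ha),
    Finset.prod_eq_single_of_mem b (Finset.mem_range.mpr hb), Pi.mulSingle_eq_same,
    Pi.mulSingle_eq_same, ← zpow_mul, ← zpow_mul]
  · intro j _ hj
    rw [Pi.mulSingle_eq_of_ne hj, one_zpow]
  · intro j _ hj
    rw [Pi.mulSingle_eq_of_ne hj, one_zpow]

/-- Every element of a finite field is a difference of sums of squares. -/
theorem closed_mul_of_sq [Finite F] (A : AddSubgroup F) (h : ∀ s : F, ∀ t ∈ A, s ^ 2 * t ∈ A)
    (x : F) {t : F} (ht : t ∈ A) : x * t ∈ A := by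
  by_cases h2 : (2 : F) = 0
  · haveI : Fintype F := Fintype.ofFinite F
    have hch : ringChar F = 2 := CharP.ringChar_of_prime_eq_zero Nat.prime_two (by exact_mod_cast h2)
    obtain ⟨y, hy⟩ := FiniteField.isSquare_of_char_two hch x
    rw [hy, ← sq]
    exact h y t ht
  · have key : ∀ z : F, 2 * z * t ∈ A := fun z => by
      have e : 2 * z * t = (z + 1) ^ 2 * t - z ^ 2 * t - (1 : F) ^ 2 * t := by ring
      rw [e]
      exact sub_mem (sub_mem (h _ t ht) (h _ t ht)) (h _ t ht)
    have := key (x / 2)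
    rwa [mul_div_cancel₀ x h2] at this

theorem full_of_exact [Finite F] (hW : WCFacts D B) (hX : Inv S X) {m : ℕ} (hm : m < D.nroots)
    (hp : D.nroots / 2 ≤ m) {v : F} (hv : v ≠ 0) (h : S.xG F m v ∈ X) : S.Full X m := by
  obtain ⟨l, hl, hlm⟩ := hW.span m hm hp
  let A : AddSubgroup F :=
    { carrier := {t | S.xG F m t ∈ X}
      add_mem' := fun {a b} ha hb => by
        show S.xG F m (a + b) ∈ X
        rw [← S.xG_add]; exact mul_mem ha hb
      zero_mem' := by
        show S.xG F m 0 ∈ X
        rw [S.xG_zero]; exact one_mem _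
      neg_mem' := fun {a} ha => by
        show S.xG F m (-a) ∈ X
        rw [← S.xG_inv]; exact inv_mem ha }
  have hA : ∀ s : F, ∀ t ∈ A, s ^ 2 * t ∈ A := by
    intro s t ht
    by_cases hs : s = 0
    · subst hs
      rw [zero_pow two_ne_zero, zero_mul]
      exact zero_mem _
    set z := Units.mk0 s hs
    have hex : ∀ x : ℤ, x * D.cartan l m = 2 → s ^ 2 * t ∈ A := by
      intro x hx
      obtain ⟨c, hc⟩ := exists_tor_val l l hl hl x 0 z
      have h1 := hX.conj_h c _ ht
      rw [S.tor_conj F c hm, hc, zero_mul, add_zero, hx] at h1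
      show S.xG F m (s ^ 2 * t) ∈ X
      simpa [z, zpow_two, sq] using h1
    rcases hlm with e | e <;> rcases Int.natAbs_eq (D.cartan l m) with e' | e' <;> rw [e] at e'
    · exact hex 2 (by omega)
    · exact hex (-2) (by omega)
    · exact hex 1 (by omega)
    · exact hex (-1) (by omega)
  intro x
  have := closed_mul_of_sq A hA (x / v) (show v ∈ A from h)
  rwa [div_mul_cancel₀ x hv] at this

/-- An ordered product in `X` has its nontrivial factors in `X`, given the statement for the
roots beyond `m`. -/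
theorem full_of_word {m : ℕ}
    (hC : ∀ k, m < k → k < D.nroots → ∀ v : F, v ≠ 0 → ∀ R ∈ uSub D F (upSet (k + 1)),
      S.xG F k v * R ∈ X → S.Full X k) :
    ∀ L : List (ℕ × F), (L.map Prod.fst).Pairwise (· < ·) →
      (∀ e ∈ L, m < e.1 ∧ D.nroots / 2 ≤ e.1 ∧ e.1 < D.nroots) → S.wG F L ∈ X →
      ∀ e ∈ L, e.2 ≠ 0 → S.Full X e.1 := by
  intro L
  induction L with
  | nil => intro _ _ _ e he; exact absurd he List.not_mem_nil
  | cons a L ih =>
    intro hs hb hX e he hne
    rw [List.map_cons, List.pairwise_cons] at hs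
    obtain ⟨ha1, ha2, ha3⟩ := hb a List.mem_cons_self
    have hR : S.wG F L ∈ uSub D F (upSet (a.1 + 1)) := by
      refine Subgroup.list_prod_mem _ fun g hg => ?_
      simp only [List.mem_map] at hg
      obtain ⟨b, hb', rfl⟩ := hg
      obtain ⟨-, h2, h3⟩ := hb b (List.mem_cons_of_mem _ hb')
      exact S.xG_mem_uSub F (P := upSet (a.1 + 1))
        ⟨trivial, hs.1 b.1 (List.mem_map.mpr ⟨b, hb', rfl⟩)⟩ h2 h3 _
    have e1 : S.wG F (a :: L) = S.xG F a.1 a.2 * S.wG F L := rfl
    rw [e1] at hX
    have hfull : a.2 ≠ 0 → S.Full X a.1 := fun h => hC a.1 ha1 ha3 a.2 h _ hR hX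
    rcases List.mem_cons.mp he with rfl | he
    · exact hfull hne
    · refine ih hs.2 (fun b hb' => hb b (List.mem_cons_of_mem _ hb')) ?_ e he hne
      by_cases h : a.2 = 0
      · rwa [h, S.xG_zero, one_mul] at hX
      · have := mul_mem (inv_mem (hfull h a.2)) hX
        rwa [inv_mul_cancel_left] at this

theorem goodComm_spec {a b k : ℕ} (h : goodComm D a b k = true) (t u : F) (ht : t ≠ 0)
    (hu : u ≠ 0) : ((D.commWord F a b t u).map Prod.fst).Pairwise (· < ·) ∧
      ∃ e ∈ D.commWord F a b t u, e.1 = k ∧ e.2 ≠ 0 := by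
  simp only [goodComm, List.any_eq_true, Bool.and_eq_true, decide_eq_true_eq,
    Bool.or_eq_true] at h
  obtain ⟨h1, c, hc, hck, hc1⟩ := h
  refine ⟨?_, (c.1, (c.2.1 : F) * (-t) ^ c.2.2.1 * u ^ c.2.2.2), ?_, hck, ?_⟩
  · simpa [ChevalleyDatum.commWord, List.map_map, Function.comp_def] using h1
  · exact List.mem_map.mpr ⟨c, hc, rfl⟩
  · refine mul_ne_zero (mul_ne_zero ?_ (pow_ne_zero _ (neg_ne_zero.mpr ht))) (pow_ne_zero _ hu)
    rcases hc1 with e | e <;> simp [e]

/-- The key statement: the lowest component of an element of `X` lies in `X`. -/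
theorem full_of_lowest [Fintype F] (hW : WCFacts D B) (hB : B + 1 < Fintype.card F)
    (hX : Inv S X) :
    ∀ d m, D.nroots / 2 ≤ m → m < D.nroots → D.nroots - m ≤ d → ∀ v : F, v ≠ 0 →
      ∀ R ∈ uSub D F (upSet (m + 1)), S.xG F m v * R ∈ X → S.Full X m := by
  intro d
  induction d with
  | zero => intro m _ hm hd; omega
  | succ d ih =>
    intro m hp hm hd
    have hC : ∀ k, m < k → k < D.nroots → ∀ v : F, v ≠ 0 → ∀ R ∈ uSub D F (upSet (k + 1)),
        S.xG F k v * R ∈ X → S.Full X k := fun k hmk hk => ih k (by omega) hk (by omega)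
    suffices ∀ j k, D.nroots - k ≤ j → m < k → ∀ v : F, v ≠ 0 → ∀ R ∈ uSub D F (upSet k),
        S.xG F m v * R ∈ X → S.Full X m from
      fun v hv R hR h => this _ (m + 1) le_rfl (by omega) v hv R hR h
    intro j
    induction j with
    | zero =>
      intro k hk hmk v hv R hR h
      have hR1 : R = 1 := by
        rw [upSet, uSub_empty_of (fun r hr h => by
          have := ((S.pos_iff r).mp h).2; have := hr.2; omega)] at hR
        exact Subgroup.mem_bot.mp hR
      rw [hR1, mul_one] at h
      exact S.full_of_exact hW hX hm hp hv h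
    | succ j ihj =>
      intro k hk hmk v hv R hR h
      rcases lt_or_ge k D.nroots with hkl | hkl
      swap
      · exact ihj k (by omega) hmk v hv R hR h
      have hkp : D.nroots / 2 ≤ k := by omega
      obtain ⟨w, R', hR', rfl⟩ := S.uSub_split F S.closed_univ (Set.mem_univ k) hkp hkl hR
      have hR'U : R' ∈ D.posUnipotent F := uSub_le_posUnipotent F _ hR'
      have hmU : ∀ a : F, S.xG F m a ∈ D.posUnipotent F := fun a => by
        rw [← uSub_univ]; exact S.xG_mem_uSub F (Set.mem_univ _) hp hm a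
      have hfullk : S.Full X k → S.Full X m := by
        intro hkX
        refine ihj (k + 1) (by omega) (by omega) v hv R' hR' ?_
        have h1 := mul_mem (hX.conj_u _ (hmU v) _ (inv_mem (hkX w))) h
        convert h1 using 1
        group
      by_cases hw : w = 0
      · subst hw
        rw [S.xG_zero, one_mul] at h
        exact ihj (k + 1) (by omega) (by omega) v hv R' hR' h
      rcases hW.pair m k hp hmk hkl with ⟨a, ha, b, hb, x, y, e0, e1, e2⟩ |
        ⟨i, hi, him, hgood, hcomm⟩
      · -- a torus element killing `k`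
        obtain ⟨z, hz⟩ : ∃ z : Fˣ, z ^ (x * D.cartan a m + y * D.cartan b m) ≠ 1 := by
          classical
          obtain ⟨g, hg⟩ := IsCyclic.exists_generator (α := Fˣ)
          refine ⟨g, fun e => ?_⟩
          have ho : orderOf g = Fintype.card F - 1 := by
            rw [orderOf_eq_card_of_forall_mem_zpowers hg, Nat.card_units, Nat.card_eq_fintype_card]
          have h1 := orderOf_dvd_iff_zpow_eq_one.mpr e
          rw [ho, Int.natCast_dvd] at h1
          have := Nat.le_of_dvd (Int.natAbs_pos.mpr e1) h1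
          omega
        obtain ⟨c, hc⟩ := exists_tor_val a b ha hb x y z
        set χ : F := ((torusVal D c m : Fˣ) : F) with hχ
        have hχ1 : χ ≠ 1 := fun e => hz (by rw [← hc m]; exact Units.ext e)
        set T := tor D F c with hT
        have hTk : T * S.xG F k w * T⁻¹ = S.xG F k w := by
          rw [hT, S.tor_conj F c hkl, hc k, e0, zpow_zero, Units.val_one, one_mul]
        have hTm : T * S.xG F m v * T⁻¹ = S.xG F m (χ * v) := S.tor_conj F c hm v
        have hTR : T * R' * T⁻¹ ∈ uSub D F (upSet (k + 1)) := S.tor_conj_uSub F c hR'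
        set Q := S.xG F k w * (T * R' * T⁻¹ * R'⁻¹) * (S.xG F k w)⁻¹ with hQ
        have hQmem : Q ∈ uSub D F (upSet (k + 1)) := S.upSet_normal F hW _
          (by rw [← uSub_univ]; exact S.xG_mem_uSub F (Set.mem_univ _) hkp hkl w)
          (mul_mem hTR (inv_mem hR'))
        refine ihj (k + 1) (by omega) (by omega) ((χ - 1) * v)
          (mul_ne_zero (sub_ne_zero.mpr hχ1) hv) (S.xG F m v * Q * (S.xG F m v)⁻¹)
          (S.upSet_normal F hW _ (hmU v) hQmem) ?_
        have h1 := mul_mem (hX.conj_h c _ h) (inv_mem h)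
        convert h1 using 1
        rw [← hT, show S.xG F m ((χ - 1) * v) = S.xG F m (χ * v) * (S.xG F m v)⁻¹ by
          rw [S.xG_inv, S.xG_add]; congr 1; ring, ← hTm, hQ]
        calc T * S.xG F m v * T⁻¹ * (S.xG F m v)⁻¹ * (S.xG F m v * (S.xG F k w *
              (T * R' * T⁻¹ * R'⁻¹) * (S.xG F k w)⁻¹) * (S.xG F m v)⁻¹)
            = T * S.xG F m v * T⁻¹ * (S.xG F k w) *
              (T * R' * T⁻¹ * R'⁻¹) * (S.xG F k w)⁻¹ * (S.xG F m v)⁻¹ := by group
          _ = T * S.xG F m v * T⁻¹ * (T * S.xG F k w * T⁻¹) *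
              (T * R' * T⁻¹ * R'⁻¹) * (S.xG F k w)⁻¹ * (S.xG F m v)⁻¹ := by rw [hTk]
          _ = _ := by group
      · -- `x_k` is forced by a commutator
        refine hfullk ?_
        obtain ⟨e, he⟩ : ∃ e, e = D.simple i := ⟨_, rfl⟩
        rw [← he] at him hgood hcomm
        have hel : e < D.nroots := he ▸ S.wf.simple_lt i hi
        have hep : D.nroots / 2 ≤ e := he ▸ S.simple_pos i hi
        set E := S.xG F e 1 with hE
        have hEU : E ∈ D.posUnipotent F := by
          rw [← uSub_univ]; exact S.xG_mem_uSub F (Set.mem_univ _) hep hel 1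
        have hcR : Commute E (S.xG F k w * R') := by
          have hmem : S.xG F k w * R' ∈ uSub D F (upSet k) :=
            mul_mem (S.xG_mem_uSub F (P := upSet k) ⟨trivial, le_rfl⟩ hkp hkl w)
              (uSub_mono (show {r ∈ (Set.univ : Set ℕ) | k < r} ⊆ upSet k from
              fun r hr => ⟨trivial, Nat.le_of_lt hr.2⟩) hR')
          generalize S.xG F k w * R' = q at hmem
          induction hmem using Subgroup.closure_induction with
          | mem p hp' =>
            obtain ⟨s, u, ⟨⟨-, hks⟩, hsp⟩, hp'⟩ := hp'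
            obtain ⟨hs1, hs2⟩ := (S.pos_iff s).mp hsp
            obtain ⟨c1, c2⟩ := hcomm s hks hs2
            rw [S.eq_xG F hp']
            exact S.xG_commute' hel hs2 c1 (fun e' => by
              have := (S.neg_half e hel).mpr hep; omega) c2 1 u
          | one => exact Commute.one_right _
          | mul p q _ _ hp' hq' => exact hp'.mul_right hq'
          | inv p _ hp' => exact hp'.inv_right
        set W := S.wG F (D.commWord F e m 1 v) with hWd
        have hne : m ≠ D.neg e := fun e' => by have := (S.neg_half e hel).mpr hep; omega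
        have hcw : E⁻¹ * S.xG F m v * E = S.xG F m v * W :=
          S.xG_comm F hel hm (Ne.symm him) hne 1 v
        have hWX : W ∈ X := by
          have h1 := mul_mem (inv_mem h) (hX.conj_u _ (inv_mem hEU) _ h)
          have h2 : (S.xG F m v * (S.xG F k w * R'))⁻¹ *
              (E⁻¹ * (S.xG F m v * (S.xG F k w * R')) * E⁻¹⁻¹) =
              (S.xG F k w * R')⁻¹ * W * (S.xG F k w * R') := by
            have : E⁻¹ * (S.xG F m v * (S.xG F k w * R')) * E⁻¹⁻¹ =
                (E⁻¹ * S.xG F m v * E) * (S.xG F k w * R') := by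
              rw [inv_inv]
              simp only [mul_assoc]
              rw [← mul_assoc (S.xG F k w) R' E, ← hcR.eq]
            rw [this, hcw]
            group
          rw [h2] at h1
          have h3 := hX.conj_u (S.xG F k w * R') (mul_mem (by
            rw [← uSub_univ]; exact S.xG_mem_uSub F (Set.mem_univ _) hkp hkl w) hR'U) _ h1
          convert h3 using 1
          group
        obtain ⟨hsorted, q, hq, hqk, hq0⟩ := goodComm_spec (F := F) hgood 1 v one_ne_zero hv
        rw [← hqk]
        refine S.full_of_word hC _ hsorted (fun p hp' => ?_) hWX q hq hq0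
        simp only [ChevalleyDatum.commWord, List.mem_map] at hp'
        obtain ⟨c, hc, rfl⟩ := hp'
        have h5 := hW.up e hel hep m hm hp c hc
        exact ⟨h5.2, by omega, S.commTerms_lt hel hm hc⟩

theorem mem_iff_full [Fintype F] (hW : WCFacts D B) (hB : B + 1 < Fintype.card F) (hX : Inv S X) :
    X = uSub D F {r | S.Full X r} := by
  refine le_antisymm ?_ (S.uSub_le F fun r hr _ _ t => hr t)
  intro g hg
  suffices ∀ d m, D.nroots / 2 ≤ m → D.nroots - m ≤ d → ∀ x ∈ X, x ∈ uSub D F (upSet m) →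
      x ∈ uSub D F {r | S.Full X r} by
    refine this _ (D.nroots / 2) le_rfl le_rfl g hg ?_
    have h1 := hX.le hg
    rw [← uSub_univ] at h1
    exact S.uSub_le F (fun r _ h2 h3 t =>
      S.xG_mem_uSub F (P := upSet (D.nroots / 2)) ⟨trivial, h2⟩ h2 h3 t) h1
  intro d
  induction d with
  | zero =>
    intro m hm hd x _ hx
    rw [upSet, uSub_empty_of (fun r hr h => by
      have := ((S.pos_iff r).mp h).2; have := hr.2; omega)] at hx
    rw [Subgroup.mem_bot.mp hx]
    exact one_mem _
  | succ d ih =>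
    intro m hm hd x hxX hx
    rcases lt_or_ge m D.nroots with hml | hml
    swap
    · exact ih m hm (by omega) x hxX hx
    obtain ⟨v, R, hR, rfl⟩ := S.uSub_split F S.closed_univ (Set.mem_univ m) hm hml hx
    by_cases hv : v = 0
    · subst hv
      rw [S.xG_zero, one_mul] at hxX ⊢
      exact ih (m + 1) (by omega) (by omega) R hxX hR
    have hfull := S.full_of_lowest hW hB hX _ m hm hml le_rfl v hv R hR hxX
    refine mul_mem (S.xG_mem_uSub F hfull hm hml v) (ih (m + 1) (by omega) (by omega) R ?_ hR)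
    have := mul_mem (inv_mem (hfull v)) hxX
    rwa [inv_mul_cancel_left] at this

/-- A weakly closed subgroup of `U` is the radical of a standard parabolic subgroup. -/
theorem weakly_closed_eq_radical [Fintype F] (hS : S.SupportEq) (hW : WCFacts D B)
    (hB : B + 1 < Fintype.card F) (hXU : X ≤ D.posUnipotent F)
    (hwc : ∀ g ∈ D.group F, X.map (MulAut.conj g).toMonoidHom ≤ D.posUnipotent F →
      X.map (MulAut.conj g).toMonoidHom = X) :
    ∃ J : Set ℕ, (∀ j ∈ J, j < D.rank) ∧ X = D.unipotentRadical F J := by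
  have hconj : ∀ g ∈ D.group F, (∀ x ∈ X, g * x * g⁻¹ ∈ D.posUnipotent F) →
      ∀ x ∈ X, g * x * g⁻¹ ∈ X := by
    intro g hg h x hx
    have := hwc g hg (by rintro _ ⟨y, hy, rfl⟩; exact h y hy)
    rw [← this]
    exact ⟨x, hx, rfl⟩
  have hX : Inv S X := by
    refine ⟨hXU, fun u hu => hconj u (S.posUnipotent_le_group F hu) fun x hx =>
      mul_mem (mul_mem hu (hXU hx)) (inv_mem hu), fun c => ?_⟩
    have hc : tor D F c ∈ D.diagonalSubgroup F := by rw [S.diagonal_eq]; exact ⟨c, rfl⟩
    exact hconj _ (S.diagonal_le_group F hc) fun x hx =>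
      (Subgroup.mem_normalizer_iff.mp (S.diagonal_le_normalizer F hc) x).mp (hXU hx)
  have hgen := S.mem_iff_full hW hB hX
  let J : Set ℕ := {i | i < D.rank ∧
    ∀ x ∈ X, S.nG F (D.simple i) 1 * x * (S.nG F (D.simple i) 1)⁻¹ ∈ X}
  have hstep : ∀ j ∈ J, ∀ r < D.nroots, D.nroots / 2 ≤ r → S.Full X r →
      r ≠ D.simple j ∧ S.Full X (D.reflectRoot j r) := by
    rintro j ⟨hj, hjn⟩ r hr hrp hfull
    have hw : ∀ t, S.xG F (D.reflectRoot j r) ((S.eta j r : F) * t) ∈ X := fun t => by
      have h1 := hjn _ (hfull t)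
      rwa [S.nG_conj_xG F hj hr, mul_inv_cancel_right] at h1
    have hη : (S.eta j r : F) ≠ 0 := left_ne_zero_of_mul_eq_one (S.eta_cast F hj hr)
    refine ⟨fun e => ?_, fun t => ?_⟩
    · subst e
      have h1 := hw 1
      rw [S.w_simple hj] at h1
      exact S.xG_neg_not_mem_borel F ((S.neg_half _ hr).mpr hrp) (mul_ne_zero hη one_ne_zero)
        (Subgroup.mem_sup_left (hXU h1))
    · have h1 := hw ((S.eta j r : F)⁻¹ * t)
      rwa [← mul_assoc, mul_inv_cancel₀ hη, one_mul] at h1
  have hout : ∀ r, D.InRootSub J r → D.nroots / 2 ≤ r → ¬ S.Full X r := by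
    have key : ∀ r, D.InRootSub J r → D.nroots / 2 ≤ r →
        r < D.nroots ∧ (D.nroots / 2 ≤ r → ¬ S.Full X r) := by
      refine S.sub_induction hS (P := fun r => r < D.nroots ∧
        (D.nroots / 2 ≤ r → ¬ S.Full X r)) (fun j hjJ hj => ?_) (fun j hjJ hj r hr ih => ?_)
      · exact ⟨S.wf.simple_lt j hj, fun hp hf =>
          (hstep j hjJ _ (S.wf.simple_lt j hj) hp hf).1 rfl⟩
      · refine ⟨hr, fun hp hf => ?_⟩
        obtain ⟨hne, hfw⟩ := hstep j hjJ r hr hp hf
        have hwp : D.nroots / 2 ≤ D.reflectRoot j r := by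
          by_contra hlt
          exact S.xG_neg_not_mem_borel F (by omega : D.reflectRoot j r < D.nroots / 2) one_ne_zero
            (Subgroup.mem_sup_left (hXU (hfw 1)))
        exact ih.2 hwp hfw
    exact fun r hr hp => (key r hr hp).2 hp
  have hsimple : ∀ i < D.rank, i ∉ J → S.Full X (D.simple i) := by
    intro i hi hiJ
    by_contra hnf
    refine hiJ ⟨hi, hconj _ (S.nG_mem F (S.wf.simple_lt i hi) 1) fun x hx => ?_⟩
    rw [hgen] at hx
    have hx' : x ∈ uSub D F (S.others i) :=
      uSub_mono (fun r hr (e : r = D.simple i) => hnf (e ▸ hr)) hx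
    exact uSub_le_posUnipotent F _ (S.nG_conj_others F hi 1 hx')
  have hall : ∀ r, r < D.nroots → D.nroots / 2 ≤ r → r ∈ outSet D J → S.Full X r := by
    intro r
    induction r using Nat.strong_induction_on with
    | _ r ih =>
      intro hr hp hout'
      obtain ⟨m, hm, hmJ, hmr⟩ := S.exists_out hS hr hp hout'
      by_cases hsimp : ∃ i < D.rank, r = D.simple i
      · obtain ⟨i, hi, rfl⟩ := hsimp
        refine hsimple i hi fun hiJ => ?_
        rw [S.vec_simple i hi m hm] at hmr
        split_ifs at hmr with e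
        · exact hmJ (e ▸ hiJ)
        · omega
      push Not at hsimp
      obtain ⟨i, hi, s, hs, hsp, hne, hgood⟩ := hW.dec r hr hp hsimp
      have hel := S.wf.simple_lt i hi
      have hep := S.simple_pos i hi
      have key : ∀ a b : ℕ, a < D.nroots → D.nroots / 2 ≤ a → b < D.nroots →
          D.nroots / 2 ≤ b → b ≠ a → goodComm D a b r = true → S.Full X r := by
        intro a b ha hap hb hbp hba hg
        obtain ⟨hsorted, q, hq, hqr, hq0⟩ := goodComm_spec (F := F) hg 1 1 one_ne_zero one_ne_zero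
        have hterm : ∀ p ∈ D.commWord F a b 1 1,
            (∃ c ∈ D.commTerms a b, c.1 = p.1) ∧ a < p.1 ∧ b < p.1 ∧ p.1 < D.nroots := by
          intro p hp'
          simp only [ChevalleyDatum.commWord, List.mem_map] at hp'
          obtain ⟨c, hc, rfl⟩ := hp'
          exact ⟨⟨c, hc, rfl⟩, (hW.up a ha hap b hb hbp c hc).1, (hW.up a ha hap b hb hbp c hc).2,
            S.commTerms_lt ha hb hc⟩
        obtain ⟨⟨c, hc, hcr⟩, har, hbr, -⟩ := hterm q hq
        rw [hqr] at hcr har hbr
        obtain ⟨c1, c2, c3⟩ := S.commTerms_vec ha hb hc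
        have hside : S.Full X a ∨ S.Full X b := by
          have h1 := c3 m hm
          rw [hcr] at h1
          by_cases h0 : 0 < S.vec m a
          · exact Or.inl (ih a har ha hap (S.mem_outSet_of_vec hS hm hmJ h0))
          · refine Or.inr (ih b hbr hb hbp (S.mem_outSet_of_vec hS hm hmJ ?_))
            by_contra h2
            have := S.vec_pos a ha hap m hm
            have := S.vec_pos b hb hbp m hm
            rw [show S.vec m a = 0 by omega, show S.vec m b = 0 by omega] at h1
            simp only [mul_zero, add_zero] at h1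
            omega
        have hU : ∀ z, D.nroots / 2 ≤ z → z < D.nroots → ∀ t : F,
            S.xG F z t ∈ D.posUnipotent F := fun z h1 h2 t => by
          rw [← uSub_univ]; exact S.xG_mem_uSub F (Set.mem_univ _) h1 h2 t
        have hneg : b ≠ D.neg a := fun e => by have := (S.neg_half _ ha).mpr hap; omega
        have hWX : S.wG F (D.commWord F a b 1 1) ∈ X := by
          have e := S.xG_comm F ha hb hba hneg (1 : F) 1
          rw [← inv_mul_eq_iff_eq_mul] at e
          rw [← e]
          rcases hside with hA | hBf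
          · have h1 := mul_mem (hX.conj_u _ (inv_mem (hU b hbp hb 1)) _ (inv_mem (hA 1))) (hA 1)
            convert h1 using 1
            group
          · have h1 := mul_mem (inv_mem (hBf 1)) (hX.conj_u _ (inv_mem (hU a hap ha 1)) _ (hBf 1))
            convert h1 using 1
            group
        rw [← hqr]
        refine S.full_of_word (m := a) (fun k hak hk => S.full_of_lowest hW hB hX _ k (by omega)
          hk le_rfl) _ hsorted (fun p hp' => ?_) hWX q hq hq0
        obtain ⟨-, h1, -, h3⟩ := hterm p hp'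
        exact ⟨h1, by omega, h3⟩
      rcases hgood with hg | hg
      · exact key _ _ hel hep hs hsp hne hg
      · exact key _ _ hs hsp hel hep (Ne.symm hne) hg
  refine ⟨J, fun j hj => hj.1, ?_⟩
  rw [unipotentRadical_eq]
  refine le_antisymm ?_ (S.uSub_le F fun r hr h1 h2 t => hall r h2 h1 hr t)
  rw [hgen]
  exact S.uSub_le F fun r hr h1 h2 t => S.xG_mem_uSub F
    (show r ∈ outSet D J from fun hin => hout r hin h1 hr) h1 h2 t

end Sys

end CfsgLib.Chevalley
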